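import Mathlib

/-!
# helper91: simple groups of Janko–Ree type (S3206) -- shared definitions

`G` simple with abelian Sylow 2-subgroups, `t` an involution with `C(t) = ⟨t⟩ × E` maximal,
`N ⊴ E`, `N ≅ PSL₂(q)`, `C_E(N) = 1`.  Then `q ≡ ±3 (mod 8)`, a Sylow 2-subgroup `S ∋ t` is
`⟨t⟩ × V` (`V` a four-group of `N`), elementary abelian of order 8 with all involutions fused in
`N_G(S)`.  Part 1 (no perfect central extension by a 2-group) follows from the fused-exponent-2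
lemma and transfer; Part 2 (2-power automorphisms centralizing `S` are inner) from the
automorphisms of `PSL₂(q)`, an averaging argument on `N_G(S)` and the maximality of `C(t)`.
-/

set_option autoImplicit false

namespace Cfsg.Agent.H91.JR

open Subgroup

/-- The properties of `N = PSL₂(q)`, `q ≡ ±3 (mod 8)`, that are used: `N` is simple; a Sylow
2-subgroup `V` has order 4 and exponent 2; some element normalizes `V` and fixes no non-identity
element of it; every automorphism of 2-power order fixing `V` pointwise is conjugation by an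
element of `V`. -/
def PslCfg (N : Type*) [Group N] : Prop :=
  IsSimpleGroup N ∧ ∀ V : Sylow 2 N,
    (Nat.card ↥(V : Subgroup N) = 4 ∧ ∀ v ∈ (V : Subgroup N), v * v = 1) ∧
    (∃ c : N, (∀ v ∈ (V : Subgroup N), c * v * c⁻¹ ∈ (V : Subgroup N)) ∧
      ∀ v ∈ (V : Subgroup N), c * v * c⁻¹ = v → v = 1) ∧
    (∀ (α : N ≃* N) (k : ℕ), α ^ (2 ^ k) = 1 → (∀ v ∈ (V : Subgroup N), α v = v) →
      ∃ w ∈ (V : Subgroup N), ∀ x : N, α x = w * x * w⁻¹)

/-- The involution-centralizer setting: `C_G(t) = ⟨t⟩ × E`, `N ⊴ E`, `C_E(N) = 1`, `N` like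
`PSL₂(q)`, `q ≡ ±3 (mod 8)`. -/
structure Setting (G : Type*) [Group G] (t : G) (E N : Subgroup G) : Prop where
  t_ne : t ≠ 1
  t_sq : t * t = 1
  N_le : N ≤ E
  norm : ∀ e ∈ E, ∀ n ∈ N, e * n * e⁻¹ ∈ N
  comm : ∀ e ∈ E, e * t = t * e
  t_not : t ∉ E
  cent : ∀ g : G, g * t = t * g → ∃ e ∈ E, g = e ∨ g = t * e
  faith : ∀ e ∈ E, (∀ n ∈ N, e * n = n * e) → e = 1
  psl : PslCfg ↥N

/-- Piece MOD8: if the Sylow 2-subgroups of `G` are abelian and `G` contains a copy of `PSL₂(q)`,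
`q` odd, then `q ≡ 3, 5 (mod 8)`. -/
def Mod8Stmt.{u, v} : Prop :=
  ∀ {G : Type u} [Group G] [Finite G], (∀ S : Sylow 2 G, ∀ x ∈ S, ∀ y ∈ S, x * y = y * x) →
    ∀ {F : Type v} [Field F] [Fintype F], Odd (Fintype.card F) →
    ∀ f : Matrix.ProjectiveSpecialLinearGroup (Fin 2) F →* G, Function.Injective f →
      Fintype.card F % 8 = 3 ∨ Fintype.card F % 8 = 5

/-- Piece PSLA: `PSL₂(q)`, `q ≡ 3, 5 (mod 8)`, `q > 3`, is simple, its Sylow 2-subgroups are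
four-groups, and some element of the normalizer of a Sylow 2-subgroup `V` fixes no non-identity
element of `V`. -/
def PslAStmt.{u} : Prop :=
  ∀ {F : Type u} [Field F] [Fintype F], 3 < Fintype.card F →
    (Fintype.card F % 8 = 3 ∨ Fintype.card F % 8 = 5) →
    IsSimpleGroup (Matrix.ProjectiveSpecialLinearGroup (Fin 2) F) ∧
    ∀ V : Sylow 2 (Matrix.ProjectiveSpecialLinearGroup (Fin 2) F),
      (Nat.card ↥(V : Subgroup (Matrix.ProjectiveSpecialLinearGroup (Fin 2) F)) = 4 ∧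
        ∀ v ∈ (V : Subgroup (Matrix.ProjectiveSpecialLinearGroup (Fin 2) F)), v * v = 1) ∧
      (∃ c : Matrix.ProjectiveSpecialLinearGroup (Fin 2) F,
        (∀ v ∈ (V : Subgroup (Matrix.ProjectiveSpecialLinearGroup (Fin 2) F)),
          c * v * c⁻¹ ∈ (V : Subgroup (Matrix.ProjectiveSpecialLinearGroup (Fin 2) F))) ∧
        ∀ v ∈ (V : Subgroup (Matrix.ProjectiveSpecialLinearGroup (Fin 2) F)),
          c * v * c⁻¹ = v → v = 1)

/-- Piece PSLB: for `q ≡ 3, 5 (mod 8)` every automorphism of `PSL₂(q)` of 2-power order fixing a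
Sylow 2-subgroup `V` pointwise is conjugation by an element of `V`. -/
def PslBStmt.{u} : Prop :=
  ∀ {F : Type u} [Field F] [Fintype F], (Fintype.card F % 8 = 3 ∨ Fintype.card F % 8 = 5) →
    ∀ V : Sylow 2 (Matrix.ProjectiveSpecialLinearGroup (Fin 2) F),
    ∀ (α : Matrix.ProjectiveSpecialLinearGroup (Fin 2) F ≃*
        Matrix.ProjectiveSpecialLinearGroup (Fin 2) F) (k : ℕ), α ^ (2 ^ k) = 1 →
      (∀ v ∈ (V : Subgroup (Matrix.ProjectiveSpecialLinearGroup (Fin 2) F)), α v = v) →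
      ∃ w ∈ (V : Subgroup (Matrix.ProjectiveSpecialLinearGroup (Fin 2) F)),
        ∀ x : Matrix.ProjectiveSpecialLinearGroup (Fin 2) F, α x = w * x * w⁻¹

/-- Piece TRANS: `PslCfg` is invariant under isomorphism. -/
def TransStmt.{u, v} : Prop :=
  ∀ {N : Type u} [Group N] {N₂ : Type v} [Group N₂], PslCfg N → (N ≃* N₂) → PslCfg N₂

/-- Piece STR1: a Sylow 2-subgroup `S ∋ t` is `⟨t⟩ × (S ∩ N)`, elementary abelian of order 8, and
`S ∩ N` is a Sylow 2-subgroup of `N`. -/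
def Str1Stmt.{u} : Prop :=
  ∀ {G : Type u} [Group G] [Finite G] (t : G) (E N : Subgroup G), Setting G t E N →
    (∀ S : Sylow 2 G, ∀ x ∈ S, ∀ y ∈ S, x * y = y * x) →
    ∀ S : Sylow 2 G, t ∈ S →
      (∀ x ∈ S, x * x = 1) ∧ Nat.card ↥(S : Subgroup G) = 8 ∧
      (∃ V : Sylow 2 ↥N, ∀ x : ↥N, x ∈ V ↔ (x : G) ∈ S) ∧
      (∀ x ∈ S, ∃ v ∈ N, v ∈ S ∧ (x = v ∨ x = t * v))

/-- Piece FUS: the normalizer of a Sylow 2-subgroup `S ∋ t` is transitive on `S ∖ {1}`. -/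
def FusStmt.{u} : Prop :=
  ∀ {G : Type u} [Group G] [Finite G] [IsSimpleGroup G] (t : G) (E N : Subgroup G),
    Setting G t E N → (∀ S : Sylow 2 G, ∀ x ∈ S, ∀ y ∈ S, x * y = y * x) →
    ∀ S : Sylow 2 G, t ∈ S → ∀ x ∈ S, ∀ y ∈ S, x ≠ 1 → y ≠ 1 →
      ∃ n : G, (∀ s : G, s ∈ S ↔ n * s * n⁻¹ ∈ S) ∧ n * x * n⁻¹ = y

/-- Piece CE2: if `S ≤ G` has exponent 2, odd index, at least 8 elements and all its non-identity
elements are fused in `G`, then a finite perfect central extension of `G` by a group of exponent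
2 is trivial. -/
def Ce2Stmt.{u, v} : Prop :=
  ∀ {G : Type u} [Group G] [Finite G] (S : Subgroup G), (∀ x ∈ S, x * x = 1) → Odd S.index →
    (∀ x ∈ S, ∀ y ∈ S, x ≠ 1 → y ≠ 1 → ∃ g : G, g * x * g⁻¹ = y) → 8 ≤ Nat.card ↥S →
    ∀ {D : Type v} [Group D] [Finite D] (ρ : D →* G), Function.Surjective ρ →
      ρ.ker ≤ center D → (∀ z ∈ ρ.ker, z * z = 1) → commutator D = ⊤ → ∀ z ∈ ρ.ker, z = 1

/-- Piece RED: reduction of central 2-group kernels to kernels of exponent 2. -/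
def RedStmt.{u, v} : Prop :=
  ∀ {G : Type u} [Group G] [Finite G],
    (∀ {D : Type v} [Group D] [Finite D] (ρ : D →* G), Function.Surjective ρ →
      ρ.ker ≤ center D → (∀ z ∈ ρ.ker, z * z = 1) → commutator D = ⊤ → ∀ z ∈ ρ.ker, z = 1) →
    ∀ (L : Type v) [Group L] [Finite L] (Z : Subgroup L) [Z.Normal], commutator L = ⊤ →
      Z ≤ center L → IsPGroup 2 ↥Z → Nonempty (L ⧸ Z ≃* G) → Z = ⊥

/-- Piece P2A: an automorphism of 2-power order fixing the Sylow 2-subgroup `S ∋ t` pointwise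
acts on `C_G(t)` as conjugation by an element of `S`. -/
def P2aStmt.{u} : Prop :=
  ∀ {G : Type u} [Group G] [Finite G] (t : G) (E N : Subgroup G), Setting G t E N →
    (∀ S : Sylow 2 G, ∀ x ∈ S, ∀ y ∈ S, x * y = y * x) →
    ∀ S : Sylow 2 G, t ∈ S → ∀ (φ : G ≃* G) (k : ℕ), φ ^ (2 ^ k) = 1 → (∀ s ∈ S, φ s = s) →
      ∃ w ∈ S, ∀ g : G, g * t = t * g → φ g = w * g * w⁻¹

/-- Piece P2B (averaging): an automorphism of 2-power order fixing `C_G(S)` pointwise, `S` a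
Sylow 2-subgroup of exponent 2, acts on `N_G(S)` as conjugation by an element of `S`. -/
def P2bStmt.{u} : Prop :=
  ∀ {G : Type u} [Group G] [Finite G] (S : Sylow 2 G), (∀ x ∈ S, x * x = 1) →
    ∀ (ψ : G ≃* G) (k : ℕ), ψ ^ (2 ^ k) = 1 → (∀ g : G, (∀ s ∈ S, g * s = s * g) → ψ g = g) →
      ∃ a ∈ S, ∀ n : G, (∀ s : G, s ∈ S ↔ n * s * n⁻¹ ∈ S) → ψ n = a * n * a⁻¹

/-- Piece P2C: automorphisms of 2-power order fixing a Sylow 2-subgroup `S ∋ t` pointwise are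
inner. -/
def P2cStmt.{u} : Prop :=
  ∀ {G : Type u} [Group G] [Finite G] [IsSimpleGroup G] (t : G) (E N : Subgroup G),
    Setting G t E N → (∀ S : Sylow 2 G, ∀ x ∈ S, ∀ y ∈ S, x * y = y * x) →
    IsCoatom (centralizer ({t} : Set G)) →
    ∀ S : Sylow 2 G, t ∈ S → ∀ (φ : G ≃* G) (k : ℕ), φ ^ (2 ^ k) = 1 → (∀ s ∈ S, φ s = s) →
      ∃ g : G, ∀ x : G, φ x = g * x * g⁻¹

/-- Piece P2D: it suffices to treat the Sylow 2-subgroups containing `t`. -/
def P2dStmt.{u} : Prop :=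
  ∀ {G : Type u} [Group G] [Finite G] (t : G), t * t = 1 →
    (∀ S : Sylow 2 G, t ∈ S → ∀ (φ : G ≃* G) (k : ℕ), φ ^ (2 ^ k) = 1 → (∀ s ∈ S, φ s = s) →
      ∃ g : G, ∀ x : G, φ x = g * x * g⁻¹) →
    ∀ (φ : G ≃* G) (k : ℕ), φ ^ (2 ^ k) = 1 →
      (∃ S : Sylow 2 G, ∀ s ∈ (S : Subgroup G), φ s = s) → ∃ g : G, ∀ x : G, φ x = g * x * g⁻¹

end Cfsg.Agent.H91.JR
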