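import Mathlib
import Cfsg.Agent.H64.TtDefs2
import Cfsg.Agent.H7.S4Gen

/-!
# TT-ISO4 (helper91, for helper64's S3685 project)

`k = 4`: `X[0,4] ≅ S₄ × C₂`, from the relations K4 and the recognition lemma RECS4C2.
-/

set_option autoImplicit false
set_option linter.unusedSimpArgs false

namespace Cfsg.Agent.H91.Tt

open Cfsg.Agent.H64.Tt

universe u

/-- The centre of `S₄` is trivial. -/
theorem iso4_perm_center (σ : Equiv.Perm (Fin 4))
    (h : ∀ τ : Equiv.Perm (Fin 4), σ * τ = τ * σ) : σ = 1 := by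
  apply Equiv.Perm.ext
  intro i
  by_contra hne
  have hne' : σ i ≠ i := by simpa using hne
  have hex : ∀ i j : Fin 4, ∃ k : Fin 4, k ≠ i ∧ k ≠ j := by decide
  obtain ⟨k, hki, hkj⟩ := hex i (σ i)
  have h1 := congrArg (fun f : Equiv.Perm (Fin 4) => f i) (h (Equiv.swap (σ i) k))
  simp only [Equiv.Perm.mul_apply] at h1
  rw [Equiv.swap_apply_of_ne_of_ne (fun e => hne' e.symm) hki.symm, Equiv.swap_apply_left] at h1
  exact hkj h1.symm

/-- TT-ISO4. -/
theorem iso4 (hK4 : K4Stmt.{u}) (hRec : RecS4C2Stmt.{u}) : Iso4Stmt.{u} := by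
  intro G _ _ x g hT hc
  obtain ⟨c01, c02, r03, y, hy, hbr⟩ := hK4 x g hT hc
  have sh : ∀ i j : ℤ, j = i + 1 → g * x i * g⁻¹ = x j := by
    intro i j hj; rw [hj]; exact hT.shift i
  have s0 := sh 0 1 (by norm_num)
  have s1 := sh 1 2 (by norm_num)
  have s2 := sh 2 3 (by norm_num)
  have s3 := sh 3 4 (by norm_num)
  have ia := hT.inv 0
  have ib := hT.inv 1
  have ic := hT.inv 2
  have id' := hT.inv 3
  have ie := hT.inv 4
  have cj : ∀ u w : G, g * (u * w) * g⁻¹ = (g * u * g⁻¹) * (g * w * g⁻¹) := by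
    intro u w; group
  have c12 : x 1 * x 2 = x 2 * x 1 := by
    have := congrArg (fun t => g * t * g⁻¹) c01
    simp only [cj, s0, s1] at this
    exact this
  have c23 : x 2 * x 3 = x 3 * x 2 := by
    have := congrArg (fun t => g * t * g⁻¹) c12
    simp only [cj, s1, s2] at this
    exact this
  have c34 : x 3 * x 4 = x 4 * x 3 := by
    have := congrArg (fun t => g * t * g⁻¹) c23
    simp only [cj, s2, s3] at this
    exact this
  have c13 : x 1 * x 3 = x 3 * x 1 := by
    have := congrArg (fun t => g * t * g⁻¹) c02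
    simp only [cj, s0, s2] at this
    exact this
  have c24 : x 2 * x 4 = x 4 * x 2 := by
    have := congrArg (fun t => g * t * g⁻¹) c13
    simp only [cj, s1, s3] at this
    exact this
  have r14 : x 1 * x 4 * x 1 * x 4 = x 2 * x 3 := by
    have := congrArg (fun t => g * t * g⁻¹) r03
    simp only [cj, s0, s3, s1, s2] at this
    exact this
  -- oriented rewriting rules
  have k10 : x 1 * x 0 = x 0 * x 1 := c01.symm
  have k20 : x 2 * x 0 = x 0 * x 2 := c02.symm
  have k21 : x 2 * x 1 = x 1 * x 2 := c12.symm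
  have k32 : x 3 * x 2 = x 2 * x 3 := c23.symm
  have k43 : x 4 * x 3 = x 3 * x 4 := c34.symm
  have k31 : x 3 * x 1 = x 1 * x 3 := c13.symm
  have k42 : x 4 * x 2 = x 2 * x 4 := c24.symm
  have L10 : ∀ t : G, x 1 * (x 0 * t) = x 0 * (x 1 * t) := fun t => by
    rw [← mul_assoc, k10, mul_assoc]
  have L20 : ∀ t : G, x 2 * (x 0 * t) = x 0 * (x 2 * t) := fun t => by
    rw [← mul_assoc, k20, mul_assoc]
  have L21 : ∀ t : G, x 2 * (x 1 * t) = x 1 * (x 2 * t) := fun t => by
    rw [← mul_assoc, k21, mul_assoc]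
  have L32 : ∀ t : G, x 3 * (x 2 * t) = x 2 * (x 3 * t) := fun t => by
    rw [← mul_assoc, k32, mul_assoc]
  have L43 : ∀ t : G, x 4 * (x 3 * t) = x 3 * (x 4 * t) := fun t => by
    rw [← mul_assoc, k43, mul_assoc]
  have L31 : ∀ t : G, x 3 * (x 1 * t) = x 1 * (x 3 * t) := fun t => by
    rw [← mul_assoc, k31, mul_assoc]
  have L42 : ∀ t : G, x 4 * (x 2 * t) = x 2 * (x 4 * t) := fun t => by
    rw [← mul_assoc, k42, mul_assoc]
  have Ia : ∀ t : G, x 0 * (x 0 * t) = t := fun t => by rw [← mul_assoc, ia, one_mul]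
  have Ib : ∀ t : G, x 1 * (x 1 * t) = t := fun t => by rw [← mul_assoc, ib, one_mul]
  have Ic : ∀ t : G, x 2 * (x 2 * t) = t := fun t => by rw [← mul_assoc, ic, one_mul]
  have Id : ∀ t : G, x 3 * (x 3 * t) = t := fun t => by rw [← mul_assoc, id', one_mul]
  have Ie : ∀ t : G, x 4 * (x 4 * t) = t := fun t => by rw [← mul_assoc, ie, one_mul]
  have h30 : x 3 * x 0 = x 0 * (x 1 * (x 2 * x 3)) := by
    have e1 : x 3 * x 0 = x 0 * (x 0 * x 3 * x 0 * x 3) * x 3 := by
      simp only [mul_assoc, Ia, Id, id', mul_one]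
    rw [e1, r03]
    simp only [mul_assoc]
  have H30 : ∀ t : G, x 3 * (x 0 * t) = x 0 * (x 1 * (x 2 * (x 3 * t))) := fun t => by
    rw [← mul_assoc, h30]; simp only [mul_assoc]
  have h41 : x 4 * x 1 = x 1 * (x 2 * (x 3 * x 4)) := by
    have e1 : x 4 * x 1 = x 1 * (x 1 * x 4 * x 1 * x 4) * x 4 := by
      simp only [mul_assoc, Ib, Ie, ie, mul_one]
    rw [e1, r14]
    simp only [mul_assoc]
  have H41 : ∀ t : G, x 4 * (x 1 * t) = x 1 * (x 2 * (x 3 * (x 4 * t))) := fun t => by
    rw [← mul_assoc, h41]; simp only [mul_assoc]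
  -- non-triviality
  have hcard1 : Nat.card (X x 0 0) = 2 := by
    have := hT.card 1 le_rfl (by norm_num)
    simpa using this
  have hcard2 : Nat.card (X x 0 1) = 4 := by
    have := hT.card 2 (by norm_num) (by norm_num)
    norm_num at this
    exact this
  have hx0 : x 0 ≠ 1 := by
    intro h0
    have hle : X x 0 0 ≤ ⊥ := by
      rw [X_le_iff]
      intro i h1 h2
      have : i = 0 := le_antisymm h2 h1
      rw [this, h0]
      exact Subgroup.one_mem _
    have : X x 0 0 = ⊥ := le_bot_iff.mp hle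
    rw [this, Subgroup.card_bot] at hcard1
    omega
  have hx2 : x 2 ≠ 1 := by
    intro h2
    apply hx0
    have e1 : x 1 = 1 := by
      have : g * x 1 * g⁻¹ = 1 := by rw [s1, h2]
      have e : x 1 = g⁻¹ * (g * x 1 * g⁻¹) * g := by group
      rw [e, this]; group
    have : g * x 0 * g⁻¹ = 1 := by rw [s0, e1]
    have e : x 0 = g⁻¹ * (g * x 0 * g⁻¹) * g := by group
    rw [e, this]; group
  have h12 : x 1 * x 2 ≠ 1 := by
    intro h
    have e12 : x 1 = x 2 := by
      have : x 1 = x 1 * x 2 * x 2 := by simp only [mul_assoc, ic, mul_one]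
      rw [this, h, one_mul]
    have e01 : x 0 = x 1 := by
      have h3 : g * x 0 * g⁻¹ = g * x 1 * g⁻¹ := by rw [s0, s1, e12]
      exact mul_left_cancel (mul_right_cancel h3)
    have hle : X x 0 1 ≤ X x 0 0 := by
      rw [X_le_iff]
      intro i h1 h2
      have hi : i = 0 ∨ i = 1 := by omega
      rcases hi with rfl | rfl
      · exact mem_X x le_rfl le_rfl
      · rw [← e01]; exact mem_X x le_rfl le_rfl
    have := Subgroup.card_le_of_le hle
    omega
  -- `x 2` is central in `X[0,4]`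
  have hcen : ∀ p ∈ X x 0 4, x 2 * p = p * x 2 := by
    have hle : X x 0 4 ≤ Subgroup.centralizer {x 2} := by
      rw [X_le_iff]
      intro i h1 h2
      rw [Subgroup.mem_centralizer_iff]
      intro h hh
      rw [Set.mem_singleton_iff] at hh
      subst hh
      interval_cases i
      · exact k20
      · exact k21
      · rfl
      · exact c23
      · exact c24
    intro p hp
    exact (Subgroup.mem_centralizer_iff.mp (hle hp)) (x 2) rfl
  -- the relations
  have r2 : (x 0 * x 1 * x 2) * (x 0 * x 1 * x 2) = 1 := by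
    simp only [mul_assoc, k10, k20, k21, L10, L20, L21, ia, ib, ic, Ia, Ib, Ic, mul_one]
  have r4 : (x 2 * x 3) * (x 2 * x 3) = 1 := by
    simp only [mul_assoc, k32, L32, ic, id', Ic, Id, mul_one]
  have r5 : x 0 * (x 0 * x 1 * x 2) = x 1 * x 2 := by
    simp only [mul_assoc, Ia]
  have r6 : (x 0 * x 1 * x 2) * x 0 = x 1 * x 2 := by
    simp only [mul_assoc, k10, k20, k21, L10, L20, L21, ia, ib, ic, Ia, Ib, Ic, mul_one]
  have r8 : (x 1 * x 3) * x 0 * (x 1 * x 3) = x 0 * x 1 * x 2 := by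
    simp only [mul_assoc, k10, k20, k21, k32, k31, L10, L20, L21, L32, L31, h30, H30,
      ia, ib, ic, id', Ia, Ib, Ic, Id, mul_one]
  have r9 : (x 1 * x 3) * (x 1 * x 2) = x 2 * x 3 := by
    simp only [mul_assoc, k21, k32, k31, L21, L32, L31, ib, ic, id', Ib, Ic, Id, mul_one]
  have r10 : (x 2 * x 3) * x 0 * (x 2 * x 3) = x 0 * x 1 * x 2 := by
    simp only [mul_assoc, k10, k20, k21, k32, k31, L10, L20, L21, L32, L31, h30, H30,
      ia, ib, ic, id', Ia, Ib, Ic, Id, mul_one]
  have r3 : y * y = 1 := by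
    rcases hy with rfl | rfl
    · exact ie
    · simp only [mul_assoc, k42, L42, ic, ie, Ic, Ie, mul_one]
  have r7 : y * (x 1 * x 2) * y = x 1 * x 3 := by
    rcases hy with rfl | rfl
    · simp only [mul_assoc, k21, k32, k43, k31, k42, L21, L32, L43, L31, L42, h41, H41,
        ib, ic, id', ie, Ib, Ic, Id, Ie, mul_one]
    · simp only [mul_assoc, k21, k32, k43, k31, k42, L21, L32, L43, L31, L42, h41, H41,
        ib, ic, id', ie, Ib, Ic, Id, Ie, mul_one]
  obtain ⟨eS⟩ := Cfsg.Agent.H7.closure_equiv_S4 (x 0) (x 0 * x 1 * x 2) y (x 1 * x 2)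
    (x 1 * x 3) (x 2 * x 3) ia r2 r3 r4 r5 r6 r7 r8 r9 r10 hbr h12
  -- the subgroup `S`
  have hyP : y ∈ X x 0 4 := by
    rcases hy with rfl | rfl
    · exact mem_X x (by norm_num) le_rfl
    · exact Subgroup.mul_mem _ (mem_X x (by norm_num) le_rfl)
        (mem_X x (by norm_num) (by norm_num))
  have hSP : Subgroup.closure ({x 0, y, x 0 * x 1 * x 2} : Set G) ≤ X x 0 4 := by
    rw [Subgroup.closure_le]
    intro w hw
    rcases hw with rfl | rfl | rfl
    · exact mem_X x le_rfl (by norm_num)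
    · exact hyP
    · exact Subgroup.mul_mem _ (Subgroup.mul_mem _ (mem_X x le_rfl (by norm_num))
        (mem_X x (by norm_num) (by norm_num))) (mem_X x (by norm_num) (by norm_num))
  have hzS : x 2 ∉ Subgroup.closure ({x 0, y, x 0 * x 1 * x 2} : Set G) := by
    intro hz
    apply hx2
    have h1 : eS ⟨x 2, hz⟩ = 1 := by
      apply iso4_perm_center
      intro τ
      obtain ⟨s, rfl⟩ := eS.surjective τ
      rw [← map_mul, ← map_mul]
      congr 1
      apply Subtype.ext
      exact hcen s.1 (hSP s.2)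
    have h2 : (⟨x 2, hz⟩ : Subgroup.closure ({x 0, y, x 0 * x 1 * x 2} : Set G)) = 1 := by
      have := eS.injective (h1.trans (map_one eS).symm)
      exact this
    exact congrArg Subtype.val h2
  exact hRec (X x 0 4) (Subgroup.closure ({x 0, y, x 0 * x 1 * x 2} : Set G)) (x 2) hSP hc
    (mem_X x (by norm_num) (by norm_num)) hzS ic hcen ⟨eS⟩

example (hK4 : Cfsg.Agent.H64.Tt.K4Stmt.{u}) (hRec : Cfsg.Agent.H64.Tt.RecS4C2Stmt.{u}) :
    Cfsg.Agent.H64.Tt.Iso4Stmt.{u} := iso4 hK4 hRec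

end Cfsg.Agent.H91.Tt
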