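import Cfsg.Agent.S3763

/-!
# Extraspecial 2-groups: classification and the number of elements of order at most 2

`es_classify` : every extraspecial 2-group is isomorphic to one of the explicit models
`Cfsg.Agent.S5396.ESG m s`;
`card_sq_model` : the number of solutions of `x ^ 2 = 1` in the models.
-/

set_option autoImplicit false
open Cfsg

namespace Cfsg.Agent.H91

open Cfsg.Agent.H54 Cfsg.Agent.S5396 Cfsg.Agent.S3763

universe u v

theorem es_classify {F : Type u} [Group F] [Finite F] (hF : IsExtraspecial 2 F) :
    ∃ (m : ℕ) (s : ZMod 2), Nonempty (ESG m s ≃* F) := by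
  have hES := ES2.of_isExtraspecial hF
  have hna : ∃ x y : F, x * y ≠ y * x := by
    by_contra hcon
    push Not at hcon
    have h1 : commutator F = ⊥ := by
      rw [commutator_def, Subgroup.commutator_eq_bot_iff_le_centralizer]
      intro g _
      rw [Subgroup.mem_centralizer_iff]
      intro k _
      exact hcon k g
    have h2 := hF.1.2.2
    rw [h1] at h2
    have h3 := hF.2
    rw [← h2, Subgroup.card_bot] at h3
    omega
  exact classify (Nat.card F) F hES rfl hna

/-- the number of solutions of `x ^ 2 = 1` in the model groups -/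
theorem card_sq_model (m : ℕ) (s : ZMod 2) :
    (Nat.card {x : ESG m s // x ^ 2 = 1} : ℤ)
      = 2 ^ (2 * (m + 1)) + (if s = 0 then 1 else -1) * 2 ^ (m + 1) := by
  have e : {x : ESG m s // x ^ 2 = 1} ≃ {x : ESG m s // x * x = 1} :=
    Equiv.subtypeEquivRight (fun x => by rw [pow_two])
  rw [Nat.card_congr e, card_sq_eq_one]
  have h1 := char_sum m s
  rw [chi_count] at h1
  have hV : (Fintype.card ((Fin m → ZMod 2 × ZMod 2) × (ZMod 2 × ZMod 2)) : ℤ) = 4 * 4 ^ m := by
    simp only [Fintype.card_prod, Fintype.card_pi, ZMod.card, Finset.prod_const, Finset.card_univ,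
      Fintype.card_fin]
    push_cast
    ring
  rw [hV] at h1
  have h4 : (4 : ℤ) ^ m = 2 ^ m * 2 ^ m := by
    rw [← mul_pow]; norm_num
  have e1 : (2 : ℤ) ^ (2 * (m + 1)) = 4 * (2 ^ m * 2 ^ m) := by ring
  have e2 : (2 : ℤ) ^ (m + 1) = 2 * 2 ^ m := by ring
  rw [h4] at h1
  push_cast
  rw [e1, e2]
  rcases S3763.z2_cases s with rfl | rfl
  · rw [local_sum0] at h1
    simp only [if_true]
    linarith
  · rw [local_sum1] at h1
    have : ¬ ((1 : ZMod 2) = 0) := by decide
    simp only [this, if_false]
    linarith

/-- transport of the count along an isomorphism -/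
theorem card_sq_congr {E : Type u} {E' : Type v} [Group E] [Group E'] (e : E ≃* E') :
    Nat.card {x : E // x ^ 2 = 1} = Nat.card {x : E' // x ^ 2 = 1} := by
  apply Nat.card_congr
  exact e.toEquiv.subtypeEquiv (fun x => by
    constructor
    · intro h
      show e x ^ 2 = 1
      rw [← map_pow, h, map_one]
    · intro h
      have h' : e x ^ 2 = 1 := h
      rw [← map_pow] at h'
      exact e.injective (by rw [h', map_one]))

end Cfsg.Agent.H91
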