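import Mathlib
import Cfsg.Prelude.Def_Classical
import Cfsg.Prelude.Def_KGroupFacts

/-!
# Outer automorphisms of a "cocycle group" over the field with two elements

For a square matrix `A` over `ZMod 2` indexed by `ι`, `MG A` is the group on `ZMod 2 × (ι → ZMod 2)`
with product `(a, u) (b, w) = (a + b + u ⬝ᵥ A *ᵥ w, u + w)`. If its centre has order two, then
`Out (MG A)` is isomorphic to the isometry group of the quadratic form `u ↦ u ⬝ᵥ A *ᵥ u`
(`outEquiv`).
-/

set_option autoImplicit false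
set_option linter.unusedSectionVars false

namespace Cfsg.Agent.H91

open Matrix

section model

variable {ι : Type} [Fintype ι] [DecidableEq ι]

/-- the quadratic form of the matrix `A` -/
def qf (A : Matrix ι ι (ZMod 2)) (u : ι → ZMod 2) : ZMod 2 := u ⬝ᵥ A *ᵥ u

/-- the cocycle group of the matrix `A` -/
@[ext] structure MG (A : Matrix ι ι (ZMod 2)) where
  a : ZMod 2
  v : ι → ZMod 2

theorem z2_add_self : ∀ a : ZMod 2, a + a = 0 := by decide

theorem z2_cases' : ∀ a : ZMod 2, a = 0 ∨ a = 1 := by decide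

omit [Fintype ι] [DecidableEq ι] in
theorem vec_add_self (u : ι → ZMod 2) : u + u = 0 := by
  funext i
  exact z2_add_self _

variable (A : Matrix ι ι (ZMod 2))

instance instGroupMG : Group (MG A) where
  mul g h := ⟨g.a + h.a + g.v ⬝ᵥ A *ᵥ h.v, g.v + h.v⟩
  one := ⟨0, 0⟩
  inv g := ⟨g.a + g.v ⬝ᵥ A *ᵥ g.v, g.v⟩
  mul_assoc g h k := by
    apply MG.ext
    · show g.a + h.a + g.v ⬝ᵥ A *ᵥ h.v + k.a + (g.v + h.v) ⬝ᵥ A *ᵥ k.v
        = g.a + (h.a + k.a + h.v ⬝ᵥ A *ᵥ k.v) + g.v ⬝ᵥ A *ᵥ (h.v + k.v)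
      rw [add_dotProduct, mulVec_add, dotProduct_add]
      abel
    · exact add_assoc _ _ _
  one_mul g := by
    apply MG.ext
    · show 0 + g.a + (0 : ι → ZMod 2) ⬝ᵥ A *ᵥ g.v = g.a
      rw [zero_dotProduct, zero_add, add_zero]
    · exact zero_add _
  mul_one g := by
    apply MG.ext
    · show g.a + 0 + g.v ⬝ᵥ A *ᵥ (0 : ι → ZMod 2) = g.a
      rw [mulVec_zero, dotProduct_zero, add_zero, add_zero]
    · exact add_zero _
  inv_mul_cancel g := by
    apply MG.ext
    · show g.a + g.v ⬝ᵥ A *ᵥ g.v + g.a + g.v ⬝ᵥ A *ᵥ g.v = 0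
      have h := z2_add_self (g.a + g.v ⬝ᵥ A *ᵥ g.v)
      rw [← h]; abel
    · exact vec_add_self _

variable {A}

theorem mg_mul_a (g h : MG A) : (g * h).a = g.a + h.a + g.v ⬝ᵥ A *ᵥ h.v := rfl
theorem mg_mul_v (g h : MG A) : (g * h).v = g.v + h.v := rfl
theorem mg_one_a : (1 : MG A).a = 0 := rfl
theorem mg_one_v : (1 : MG A).v = 0 := rfl
theorem mg_inv_v (g : MG A) : (g⁻¹).v = g.v := rfl

variable (A) in
/-- the underlying equivalence with a product -/
def mgEquiv : MG A ≃ ZMod 2 × (ι → ZMod 2) where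
  toFun g := (g.a, g.v)
  invFun p := ⟨p.1, p.2⟩
  left_inv _ := rfl
  right_inv _ := rfl

instance instFiniteMG : Finite (MG A) := Finite.of_equiv _ (mgEquiv A).symm

variable (A) in
theorem card_mg : Nat.card (MG A) = 2 * 2 ^ Fintype.card ι := by
  rw [Nat.card_congr (mgEquiv A), Nat.card_eq_fintype_card]
  simp only [Fintype.card_prod, Fintype.card_pi, ZMod.card, Finset.prod_const, Finset.card_univ]

variable (A) in
/-- the central involution -/
def mgz : MG A := ⟨1, 0⟩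

theorem mgz_ne_one : mgz A ≠ 1 := by
  intro h
  have h1 : (1 : ZMod 2) = 0 := congrArg MG.a h
  exact absurd h1 (by decide)

theorem central_of_v (g : MG A) (hg : g.v = 0) : g ∈ Subgroup.center (MG A) := by
  rw [Subgroup.mem_center_iff]
  intro h
  apply MG.ext
  · rw [mg_mul_a, mg_mul_a, hg, zero_dotProduct, mulVec_zero, dotProduct_zero]
    abel
  · rw [mg_mul_v, mg_mul_v, add_comm]

theorem eq_one_or_mgz (g : MG A) (hg : g.v = 0) : g = 1 ∨ g = mgz A := by
  rcases z2_cases' g.a with h | h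
  · left; exact MG.ext h hg
  · right; exact MG.ext h hg

/-- if the centre has order two, it consists of the elements with trivial vector part -/
theorem v_of_central (hc : Nat.card (Subgroup.center (MG A)) = 2) (g : MG A)
    (hg : g ∈ Subgroup.center (MG A)) : g.v = 0 := by
  obtain ⟨y, -, hy⟩ := (Nat.card_eq_two_iff' (1 : Subgroup.center (MG A))).mp hc
  by_cases h1 : g = 1
  · rw [h1]; rfl
  · have e1 : (⟨g, hg⟩ : Subgroup.center (MG A)) = y :=
      hy _ (fun h => h1 (congrArg Subtype.val h))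
    have e2 : (⟨mgz A, central_of_v _ rfl⟩ : Subgroup.center (MG A)) = y :=
      hy _ (fun h => mgz_ne_one (congrArg Subtype.val h))
    have e3 : g = mgz A := congrArg Subtype.val (e1.trans e2.symm)
    rw [e3]; rfl

end model

section aut

variable {ι : Type} [Fintype ι] [DecidableEq ι] {A : Matrix ι ι (ZMod 2)}

theorem mulVec_ext' {M N : Matrix ι ι (ZMod 2)} (h : ∀ w, M *ᵥ w = N *ᵥ w) : M = N := by
  ext i j
  have := congrFun (h (Pi.single j 1)) i
  simpa using this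

theorem mem_iso_iff {Q : (ι → ZMod 2) → ZMod 2} {g : GL ι (ZMod 2)} :
    g ∈ Cfsg.isometryGroup (ZMod 2) Q ↔ ∀ u : ι → ZMod 2, Q ((g : Matrix ι ι (ZMod 2)) *ᵥ u) = Q u :=
  ⟨fun h u => h u u, fun h u _ => h u⟩

/-- the action of an automorphism on the vector part -/
def autT (φ : MulAut (MG A)) (w : ι → ZMod 2) : ι → ZMod 2 := (φ ⟨0, w⟩).v

theorem aut_central (φ : MulAut (MG A)) (g : MG A) (hg : g ∈ Subgroup.center (MG A)) :
    φ g ∈ Subgroup.center (MG A) := by
  rw [Subgroup.mem_center_iff] at hg ⊢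
  intro h
  have h2 := congrArg φ (hg (φ.symm h))
  rw [map_mul, map_mul, MulEquiv.apply_symm_apply] at h2
  exact h2

theorem mg_split (g : MG A) : g = (⟨g.a, 0⟩ : MG A) * ⟨0, g.v⟩ := by
  apply MG.ext
  · rw [mg_mul_a]
    show g.a = g.a + 0 + (0 : ι → ZMod 2) ⬝ᵥ A *ᵥ g.v
    rw [zero_dotProduct, add_zero, add_zero]
  · rw [mg_mul_v]
    show g.v = 0 + g.v
    rw [zero_add]

theorem aut_v (hc : Nat.card (Subgroup.center (MG A)) = 2) (φ : MulAut (MG A)) (g : MG A) :
    (φ g).v = autT φ g.v := by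
  conv_lhs => rw [mg_split g]
  rw [map_mul, mg_mul_v, v_of_central hc _ (aut_central φ _ (central_of_v _ rfl)), zero_add]
  rfl

theorem autT_add (hc : Nat.card (Subgroup.center (MG A)) = 2) (φ : MulAut (MG A))
    (u w : ι → ZMod 2) : autT φ (u + w) = autT φ u + autT φ w := by
  have h : ((⟨0, u⟩ : MG A) * ⟨0, w⟩).v = u + w := rfl
  rw [← h, ← aut_v hc, map_mul, mg_mul_v]
  rfl

theorem autT_mul (hc : Nat.card (Subgroup.center (MG A)) = 2) (φ ψ : MulAut (MG A))
    (w : ι → ZMod 2) : autT (φ * ψ) w = autT φ (autT ψ w) := by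
  show ((φ * ψ) ⟨0, w⟩).v = _
  rw [MulAut.mul_apply, aut_v hc φ]
  rfl

theorem autT_one (w : ι → ZMod 2) : autT (1 : MulAut (MG A)) w = w := rfl

theorem mg_sq (g : MG A) : g * g = ⟨qf A g.v, 0⟩ := by
  apply MG.ext
  · rw [mg_mul_a, z2_add_self, zero_add]
    rfl
  · rw [mg_mul_v]
    exact vec_add_self _

theorem autT_qf (hc : Nat.card (Subgroup.center (MG A)) = 2) (φ : MulAut (MG A))
    (w : ι → ZMod 2) : qf A (autT φ w) = qf A w := by
  have h1 := mg_sq (φ (⟨0, w⟩ : MG A))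
  rw [← map_mul, mg_sq] at h1
  change φ (⟨qf A w, 0⟩ : MG A) = ⟨qf A (autT φ w), 0⟩ at h1
  rcases z2_cases' (qf A w) with h | h
  · rw [h] at h1
    have h2 : φ (⟨0, 0⟩ : MG A) = 1 := map_one φ
    rw [h2] at h1
    have h3 : (0 : ZMod 2) = qf A (autT φ w) := congrArg MG.a h1
    rw [h, ← h3]
  · rw [h] at h1
    rcases z2_cases' (qf A (autT φ w)) with h' | h'
    · exfalso
      have h2 : φ (⟨1, 0⟩ : MG A) = 1 := by
        rw [h1]
        exact MG.ext h' rfl
      have h3 : (⟨1, 0⟩ : MG A) = 1 := by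
        have := congrArg φ.symm h2
        rwa [MulEquiv.symm_apply_apply, map_one] at this
      exact mgz_ne_one h3
    · rw [h, h']

/-- additive maps are given by matrices -/
theorem exists_matrix (T : (ι → ZMod 2) → (ι → ZMod 2)) (hT : ∀ u w, T (u + w) = T u + T w) :
    ∃ M : Matrix ι ι (ZMod 2), ∀ w, M *ᵥ w = T w := by
  let f : (ι → ZMod 2) →+ (ι → ZMod 2) := AddMonoidHom.mk' T hT
  refine ⟨LinearMap.toMatrix' (f.toZModLinearMap 2), fun w => ?_⟩
  rw [← Matrix.toLin'_apply, Matrix.toLin'_toMatrix']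
  rfl

/-- the matrix of an automorphism -/
def autM (φ : MulAut (MG A)) : Matrix ι ι (ZMod 2) :=
  Matrix.of (fun i j => autT φ (Pi.single j 1) i)

theorem autM_mulVec (hc : Nat.card (Subgroup.center (MG A)) = 2) (φ : MulAut (MG A))
    (w : ι → ZMod 2) : autM φ *ᵥ w = autT φ w := by
  obtain ⟨M, hM⟩ := exists_matrix (autT φ) (autT_add hc φ)
  have e : autM φ = M := by
    ext i j
    have := congrFun (hM (Pi.single j 1)) i
    rw [Matrix.mulVec_single_one] at this
    exact this.symm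
  rw [e, hM]

theorem autM_mul (hc : Nat.card (Subgroup.center (MG A)) = 2) (φ ψ : MulAut (MG A)) :
    autM (φ * ψ) = autM φ * autM ψ := by
  apply mulVec_ext'
  intro w
  rw [← Matrix.mulVec_mulVec, autM_mulVec hc, autM_mulVec hc, autM_mulVec hc, autT_mul hc]

theorem autM_one (hc : Nat.card (Subgroup.center (MG A)) = 2) :
    autM (1 : MulAut (MG A)) = 1 := by
  apply mulVec_ext'
  intro w
  rw [autM_mulVec hc, Matrix.one_mulVec, autT_one]

/-- the invertible matrix of an automorphism -/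
def autGL (hc : Nat.card (Subgroup.center (MG A)) = 2) (φ : MulAut (MG A)) : GL ι (ZMod 2) :=
  ⟨autM φ, autM φ⁻¹, by rw [← autM_mul hc, mul_inv_cancel, autM_one hc],
    by rw [← autM_mul hc, inv_mul_cancel, autM_one hc]⟩

/-- the homomorphism from the automorphism group to the isometry group -/
def autHom (hc : Nat.card (Subgroup.center (MG A)) = 2) :
    MulAut (MG A) →* ↥(Cfsg.isometryGroup (ZMod 2) (qf A)) where
  toFun φ := ⟨autGL hc φ, mem_iso_iff.mpr (fun u => by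
    show qf A (autM φ *ᵥ u) = qf A u
    rw [autM_mulVec hc, autT_qf hc])⟩
  map_one' := by
    apply Subtype.ext
    apply Units.ext
    exact autM_one hc
  map_mul' φ ψ := by
    apply Subtype.ext
    apply Units.ext
    exact autM_mul hc φ ψ

theorem autHom_coe (hc : Nat.card (Subgroup.center (MG A)) = 2) (φ : MulAut (MG A)) :
    (((autHom hc φ : ↥(Cfsg.isometryGroup (ZMod 2) (qf A))) : GL ι (ZMod 2)) :
      Matrix ι ι (ZMod 2)) = autM φ := rfl

end aut

section kernel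

variable {ι : Type} [Fintype ι] [DecidableEq ι] {A : Matrix ι ι (ZMod 2)}

theorem autHom_conj (hc : Nat.card (Subgroup.center (MG A)) = 2) (h : MG A) :
    autHom hc (MulAut.conj h) = 1 := by
  apply Subtype.ext
  apply Units.ext
  show autM (MulAut.conj h) = 1
  apply mulVec_ext'
  intro w
  rw [autM_mulVec hc, Matrix.one_mulVec]
  show (h * ⟨0, w⟩ * h⁻¹).v = w
  rw [mg_mul_v, mg_mul_v, mg_inv_v]
  show h.v + w + h.v = w
  rw [add_comm, ← add_assoc, vec_add_self, zero_add]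

theorem inn_le_ker (hc : Nat.card (Subgroup.center (MG A)) = 2) :
    Cfsg.Inn (MG A) ≤ (autHom hc).ker := by
  rintro _ ⟨h, rfl⟩
  exact autHom_conj hc h

theorem ker_v (hc : Nat.card (Subgroup.center (MG A)) = 2) (φ : MulAut (MG A))
    (hφ : φ ∈ (autHom hc).ker) (g : MG A) : (φ g).v = g.v := by
  have h1 : autM φ = 1 := by
    have h2 := MonoidHom.mem_ker.mp hφ
    have h3 := autHom_coe hc φ
    rw [h2] at h3
    exact h3.symm
  rw [aut_v hc, ← autM_mulVec hc, h1, Matrix.one_mulVec]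

theorem aut_mgz (hc : Nat.card (Subgroup.center (MG A)) = 2) (φ : MulAut (MG A)) :
    φ (mgz A) = mgz A := by
  have h1 := v_of_central hc _ (aut_central φ _ (central_of_v (mgz A) rfl))
  rcases eq_one_or_mgz _ h1 with h | h
  · exfalso
    have := congrArg φ.symm h
    rw [MulEquiv.symm_apply_apply, map_one] at this
    exact mgz_ne_one this
  · exact h

theorem aut_cen (hc : Nat.card (Subgroup.center (MG A)) = 2) (φ : MulAut (MG A)) (c : ZMod 2) :
    φ (⟨c, 0⟩ : MG A) = ⟨c, 0⟩ := by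
  rcases z2_cases' c with rfl | rfl
  · exact map_one φ
  · exact aut_mgz hc φ

/-- the scalar part of a kernel element -/
def kerL (φ : MulAut (MG A)) (w : ι → ZMod 2) : ZMod 2 := (φ ⟨0, w⟩).a

theorem ker_apply (hc : Nat.card (Subgroup.center (MG A)) = 2) (φ : MulAut (MG A))
    (hφ : φ ∈ (autHom hc).ker) (g : MG A) : φ g = ⟨g.a + kerL φ g.v, g.v⟩ := by
  conv_lhs => rw [mg_split g]
  rw [map_mul, aut_cen hc φ g.a]
  apply MG.ext
  · rw [mg_mul_a]
    show g.a + (φ ⟨0, g.v⟩).a + (0 : ι → ZMod 2) ⬝ᵥ A *ᵥ _ = _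
    rw [zero_dotProduct, add_zero]
    rfl
  · rw [mg_mul_v]
    show 0 + (φ ⟨0, g.v⟩).v = g.v
    rw [zero_add, ker_v hc φ hφ]

theorem kerL_add (hc : Nat.card (Subgroup.center (MG A)) = 2) (φ : MulAut (MG A))
    (hφ : φ ∈ (autHom hc).ker) (u w : ι → ZMod 2) :
    kerL φ (u + w) = kerL φ u + kerL φ w := by
  have h1 : φ ((⟨0, u⟩ : MG A) * ⟨0, w⟩) = φ ⟨0, u⟩ * φ ⟨0, w⟩ := map_mul φ _ _
  rw [ker_apply hc φ hφ, ker_apply hc φ hφ ⟨0, u⟩, ker_apply hc φ hφ ⟨0, w⟩] at h1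
  have h2 := congrArg MG.a h1
  rw [mg_mul_a] at h2
  change (0 : ZMod 2) + 0 + u ⬝ᵥ A *ᵥ w + kerL φ (u + w)
    = 0 + kerL φ u + (0 + kerL φ w) + u ⬝ᵥ A *ᵥ w at h2
  have h3 : kerL φ (u + w) + u ⬝ᵥ A *ᵥ w = kerL φ u + kerL φ w + u ⬝ᵥ A *ᵥ w := by
    rw [← h2.trans (by abel : (0 : ZMod 2) + kerL φ u + (0 + kerL φ w) + u ⬝ᵥ A *ᵥ w
      = kerL φ u + kerL φ w + u ⬝ᵥ A *ᵥ w)]
    abel
  exact add_right_cancel h3

theorem kerL_ext (hc : Nat.card (Subgroup.center (MG A)) = 2) (φ ψ : MulAut (MG A))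
    (hφ : φ ∈ (autHom hc).ker) (hψ : ψ ∈ (autHom hc).ker)
    (h : ∀ j, kerL φ (Pi.single j 1) = kerL ψ (Pi.single j 1)) : φ = ψ := by
  let f : (ι → ZMod 2) →+ ZMod 2 := AddMonoidHom.mk' (kerL φ) (kerL_add hc φ hφ)
  let g : (ι → ZMod 2) →+ ZMod 2 := AddMonoidHom.mk' (kerL ψ) (kerL_add hc ψ hψ)
  have hfg : f = g := by
    apply AddMonoidHom.functions_ext
    intro i x
    rcases z2_cases' x with rfl | rfl
    · rw [Pi.single_zero, map_zero, map_zero]
    · exact h i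
  apply MulEquiv.ext
  intro x
  rw [ker_apply hc φ hφ, ker_apply hc ψ hψ]
  have h2 : kerL φ x.v = kerL ψ x.v := DFunLike.congr_fun hfg x.v
  rw [h2]

theorem card_ker_le (hc : Nat.card (Subgroup.center (MG A)) = 2) :
    Nat.card (autHom hc).ker ≤ 2 ^ Fintype.card ι := by
  have hinj : Function.Injective
      (fun φ : (autHom hc).ker => fun j : ι => kerL φ.1 (Pi.single j 1)) := by
    intro φ ψ h
    exact Subtype.ext (kerL_ext hc φ.1 ψ.1 φ.2 ψ.2 (fun j => congrFun h j))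
  have h1 := Nat.card_le_card_of_injective _ hinj
  rwa [Nat.card_eq_fintype_card (α := ι → ZMod 2), Fintype.card_fun, ZMod.card] at h1

theorem conj_ker_eq_center (G : Type*) [Group G] :
    (MulAut.conj : G →* MulAut G).ker = Subgroup.center G := by
  ext g
  rw [MonoidHom.mem_ker, Subgroup.mem_center_iff]
  constructor
  · intro h x
    have h2 := DFunLike.congr_fun h x
    rw [MulAut.conj_apply, MulAut.one_apply] at h2
    have h3 : g * x = x * g := by
      calc g * x = g * x * g⁻¹ * g := by group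
        _ = x * g := by rw [h2]
    exact h3.symm
  · intro h
    ext x
    rw [MulAut.conj_apply, MulAut.one_apply, ← h x]
    group

theorem card_inn_mul (G : Type*) [Group G] [Finite G] :
    Nat.card (Subgroup.center G) * Nat.card (Cfsg.Inn G) = Nat.card G := by
  have h2 := Subgroup.index_ker (MulAut.conj : G →* MulAut G)
  rw [conj_ker_eq_center] at h2
  rw [← h2]
  exact Subgroup.card_mul_index _

theorem card_inn (hc : Nat.card (Subgroup.center (MG A)) = 2) :
    Nat.card (Cfsg.Inn (MG A)) = 2 ^ Fintype.card ι := by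
  have h := card_inn_mul (MG A)
  rw [hc, card_mg] at h
  exact Nat.eq_of_mul_eq_mul_left (by norm_num) h

theorem ker_eq_inn (hc : Nat.card (Subgroup.center (MG A)) = 2) :
    (autHom hc).ker = Cfsg.Inn (MG A) :=
  (Subgroup.eq_of_le_of_card_ge (inn_le_ker hc) (by rw [card_inn hc]; exact card_ker_le hc)).symm

end kernel

section lift

variable {ι : Type} [Fintype ι] [DecidableEq ι] {A : Matrix ι ι (ZMod 2)}

theorem z2_eq_of_add : ∀ a b : ZMod 2, a + b = 0 → a = b := by decide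

theorem dot_mulVec_mul (A M : Matrix ι ι (ZMod 2)) (u w : ι → ZMod 2) :
    (M *ᵥ u) ⬝ᵥ A *ᵥ (M *ᵥ w) = u ⬝ᵥ (Mᵀ * A * M) *ᵥ w := by
  rw [← Matrix.mulVec_mulVec, ← Matrix.mulVec_mulVec, Matrix.dotProduct_mulVec u Mᵀ,
    Matrix.vecMul_transpose]

theorem alt_diag (Γ : Matrix ι ι (ZMod 2)) (h : ∀ u, u ⬝ᵥ Γ *ᵥ u = 0) (i : ι) : Γ i i = 0 := by
  have := h (Pi.single i 1)
  simpa using this

theorem alt_symm (Γ : Matrix ι ι (ZMod 2)) (h : ∀ u, u ⬝ᵥ Γ *ᵥ u = 0) (i j : ι) :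
    Γ i j = Γ j i := by
  have h1 := h (Pi.single i 1 + Pi.single j 1)
  rw [Matrix.mulVec_add, add_dotProduct, dotProduct_add, dotProduct_add] at h1
  simp only [Matrix.mulVec_single_one, single_one_dotProduct, Matrix.col_apply] at h1
  rw [alt_diag Γ h i, alt_diag Γ h j, zero_add, add_zero] at h1
  exact z2_eq_of_add _ _ h1

/-- an alternating matrix over the field with two elements is the polar form of a quadratic form -/
theorem exists_quad (Γ : Matrix ι ι (ZMod 2)) (h : ∀ u, u ⬝ᵥ Γ *ᵥ u = 0) :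
    ∃ l : (ι → ZMod 2) → ZMod 2, ∀ u w, l (u + w) = l u + l w + u ⬝ᵥ Γ *ᵥ w := by
  classical
  let e := Fintype.equivFin ι
  let U : Matrix ι ι (ZMod 2) := Matrix.of (fun i j => if e i < e j then Γ i j else 0)
  have hU : Γ = U + Uᵀ := by
    ext i j
    rw [Matrix.add_apply, Matrix.transpose_apply]
    show Γ i j = (if e i < e j then Γ i j else 0) + (if e j < e i then Γ j i else 0)
    rcases lt_trichotomy (e i) (e j) with hlt | heq | hgt
    · rw [if_pos hlt, if_neg (not_lt.mpr hlt.le), add_zero]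
    · have hij : i = j := e.injective heq
      subst hij
      rw [if_neg (lt_irrefl _), add_zero, alt_diag Γ h]
    · rw [if_neg (not_lt.mpr hgt.le), if_pos hgt, zero_add, alt_symm Γ h]
  refine ⟨fun u => u ⬝ᵥ U *ᵥ u, fun u w => ?_⟩
  show (u + w) ⬝ᵥ U *ᵥ (u + w) = u ⬝ᵥ U *ᵥ u + w ⬝ᵥ U *ᵥ w + u ⬝ᵥ Γ *ᵥ w
  have h1 : w ⬝ᵥ U *ᵥ u = u ⬝ᵥ Uᵀ *ᵥ w := by
    rw [dotProduct_comm, Matrix.dotProduct_mulVec u Uᵀ, Matrix.vecMul_transpose]
  rw [hU, Matrix.add_mulVec, dotProduct_add, ← h1, Matrix.mulVec_add, add_dotProduct,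
    dotProduct_add, dotProduct_add]
  abel

/-- the lift of an isometry to an automorphism -/
theorem exists_lift (M : GL ι (ZMod 2))
    (hM : ∀ u : ι → ZMod 2, qf A ((M : Matrix ι ι (ZMod 2)) *ᵥ u) = qf A u) :
    ∃ φ : MulAut (MG A), ∀ w : ι → ZMod 2, (φ ⟨0, w⟩).v = (M : Matrix ι ι (ZMod 2)) *ᵥ w := by
  set N : Matrix ι ι (ZMod 2) := (M : Matrix ι ι (ZMod 2)) with hN
  have hΓ : ∀ u : ι → ZMod 2, u ⬝ᵥ (Nᵀ * A * N + A) *ᵥ u = 0 := by
    intro u
    rw [Matrix.add_mulVec, dotProduct_add, ← dot_mulVec_mul]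
    have := hM u
    unfold qf at this
    rw [this]
    exact z2_add_self _
  obtain ⟨l, hl⟩ := exists_quad _ hΓ
  let f : MG A → MG A := fun g => ⟨g.a + l g.v, N *ᵥ g.v⟩
  have hmul : ∀ g h : MG A, f (g * h) = f g * f h := by
    intro g h
    apply MG.ext
    · show (g * h).a + l (g * h).v = g.a + l g.v + (h.a + l h.v) + (N *ᵥ g.v) ⬝ᵥ A *ᵥ (N *ᵥ h.v)
      rw [mg_mul_a, mg_mul_v, hl, Matrix.add_mulVec, dotProduct_add, ← dot_mulVec_mul]
      have h2 := z2_add_self (g.v ⬝ᵥ A *ᵥ h.v)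
      calc g.a + h.a + g.v ⬝ᵥ A *ᵥ h.v
            + (l g.v + l h.v + ((N *ᵥ g.v) ⬝ᵥ A *ᵥ (N *ᵥ h.v) + g.v ⬝ᵥ A *ᵥ h.v))
          = g.a + l g.v + (h.a + l h.v) + (N *ᵥ g.v) ⬝ᵥ A *ᵥ (N *ᵥ h.v)
            + (g.v ⬝ᵥ A *ᵥ h.v + g.v ⬝ᵥ A *ᵥ h.v) := by abel
        _ = g.a + l g.v + (h.a + l h.v) + (N *ᵥ g.v) ⬝ᵥ A *ᵥ (N *ᵥ h.v) := by
            rw [h2, add_zero]
    · show N *ᵥ (g * h).v = N *ᵥ g.v + N *ᵥ h.v
      rw [mg_mul_v, Matrix.mulVec_add]
  have hinj : Function.Injective f := by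
    intro g h hgh
    have h1 : N *ᵥ g.v = N *ᵥ h.v := congrArg MG.v hgh
    have h2 : g.v = h.v := by
      have h3 := congrArg (fun x => ((M⁻¹ : GL ι (ZMod 2)) : Matrix ι ι (ZMod 2)) *ᵥ x) h1
      simp only [Matrix.mulVec_mulVec] at h3
      rw [hN, ← Units.val_mul, inv_mul_cancel, Units.val_one, Matrix.one_mulVec,
        Matrix.one_mulVec] at h3
      exact h3
    have h4 : g.a + l g.v = h.a + l h.v := congrArg MG.a hgh
    rw [h2] at h4
    exact MG.ext (add_right_cancel h4) h2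
  refine ⟨MulEquiv.ofBijective (MonoidHom.mk' f hmul)
    ⟨hinj, Finite.injective_iff_surjective.mp hinj⟩, fun w => ?_⟩
  rfl

theorem autHom_surj (hc : Nat.card (Subgroup.center (MG A)) = 2) :
    Function.Surjective (autHom hc) := by
  rintro ⟨M, hM⟩
  obtain ⟨φ, hφ⟩ := exists_lift M (mem_iso_iff.mp hM)
  refine ⟨φ, ?_⟩
  apply Subtype.ext
  apply Units.ext
  show autM φ = (M : Matrix ι ι (ZMod 2))
  apply mulVec_ext'
  intro w
  rw [autM_mulVec hc]
  exact hφ w

/-- the outer automorphism group of the cocycle group is the isometry group of the form -/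
noncomputable def outEquiv (hc : Nat.card (Subgroup.center (MG A)) = 2) :
    Cfsg.Out (MG A) ≃* ↥(Cfsg.isometryGroup (ZMod 2) (qf A)) :=
  (QuotientGroup.quotientMulEquivOfEq (ker_eq_inn hc).symm).trans
    (QuotientGroup.quotientKerEquivOfSurjective (autHom hc) (autHom_surj hc))

end lift

end Cfsg.Agent.H91
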