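import Cfsg.Agent.H91.ESOut
import Cfsg.Agent.H91.ES2Class

/-!
# Outer automorphism groups of the extraspecial 2-groups

`out_plus`, `out_minus`: `Out` of the model groups `ESG m 0`, `ESG m 1` is the full isometry
group of `quadFormPlus (m + 1)`, resp. `quadFormMinus m 1 1`, over `ZMod 2`.
`outCongr`: isomorphic groups have isomorphic outer automorphism groups.
-/

set_option autoImplicit false

namespace Cfsg.Agent.H91
open Matrix Cfsg.Agent.S5396

universe u v

/-- transport of the outer automorphism group -/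
noncomputable def outCongr {G : Type u} {H : Type v} [Group G] [Group H] (e : G ≃* H) :
    Cfsg.Out G ≃* Cfsg.Out H :=
  QuotientGroup.congr (Cfsg.Inn G) (Cfsg.Inn H) (MulAut.congr e) (by
    ext ψ
    constructor
    · rintro ⟨φ, ⟨g, rfl⟩, rfl⟩
      refine ⟨e g, ?_⟩
      ext x
      simp [MulAut.congr]
    · rintro ⟨h, rfl⟩
      refine ⟨MulAut.conj (e.symm h), ⟨e.symm h, rfl⟩, ?_⟩
      ext x
      simp [MulAut.congr])

/-- plus-type matrix -/
def Aplus (n : ℕ) : Matrix (Fin n ⊕ Fin n) (Fin n ⊕ Fin n) (ZMod 2) := Matrix.fromBlocks 0 1 0 0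

theorem aplus_form (n : ℕ) (x y : Fin n ⊕ Fin n → ZMod 2) :
    x ⬝ᵥ Aplus n *ᵥ y = ∑ i, x (Sum.inl i) * y (Sum.inr i) := by
  simp [dotProduct, Matrix.mulVec, Aplus, Fintype.sum_sum_type, Matrix.one_apply]

/-- minus-type matrix -/
def Aminus (m : ℕ) : Matrix ((Fin m ⊕ Fin m) ⊕ Fin 2) ((Fin m ⊕ Fin m) ⊕ Fin 2) (ZMod 2) :=
  Matrix.fromBlocks (Aplus m) 0 0 !![1, 1; 0, 1]

theorem aminus_form (m : ℕ) (x y : (Fin m ⊕ Fin m) ⊕ Fin 2 → ZMod 2) :
    x ⬝ᵥ Aminus m *ᵥ y = ∑ i, x (Sum.inl (Sum.inl i)) * y (Sum.inl (Sum.inr i))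
      + (x (Sum.inr 0) * y (Sum.inr 0) + x (Sum.inr 0) * y (Sum.inr 1)
        + x (Sum.inr 1) * y (Sum.inr 1)) := by
  simp [dotProduct, Matrix.mulVec, Aminus, Aplus, Fintype.sum_sum_type, Matrix.one_apply,
    Fin.sum_univ_two]
  ring

/-- a cocycle-preserving additive equivalence gives an isomorphism of groups -/
def esgMG {ι : Type} [Fintype ι] [DecidableEq ι] {m : ℕ} {s : ZMod 2} {A : Matrix ι ι (ZMod 2)}
    (e : ((Fin m → ZMod 2 × ZMod 2) × (ZMod 2 × ZMod 2)) ≃+ (ι → ZMod 2))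
    (he : ∀ u w, e u ⬝ᵥ A *ᵥ e w = S5396.beta m s u w) : ESG m s ≃* MG A where
  toFun g := ⟨g.a, e g.v⟩
  invFun g := ⟨e.symm g.v, g.a⟩
  left_inv g := by
    apply ESG.ext
    · exact e.symm_apply_apply _
    · rfl
  right_inv g := by
    apply MG.ext
    · rfl
    · exact e.apply_symm_apply _
  map_mul' g h := by
    apply MG.ext
    · show (g * h).a = g.a + h.a + e g.v ⬝ᵥ A *ᵥ e h.v
      rw [he]
      rfl
    · show e (g * h).v = e g.v + e h.v
      rw [mul_v, map_add]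

/-- coordinates for the plus type -/
def ePlus (m : ℕ) : ((Fin m → ZMod 2 × ZMod 2) × (ZMod 2 × ZMod 2)) ≃+
    (Fin (m + 1) ⊕ Fin (m + 1) → ZMod 2) where
  toFun u := Sum.elim (Fin.snoc (α := fun _ => ZMod 2) (fun i => (u.1 i).1) u.2.1)
    (Fin.snoc (α := fun _ => ZMod 2) (fun i => (u.1 i).2) u.2.2)
  invFun w := (fun i => (w (Sum.inl i.castSucc), w (Sum.inr i.castSucc)),
    (w (Sum.inl (Fin.last m)), w (Sum.inr (Fin.last m))))
  left_inv u := by
    apply Prod.ext
    · funext i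
      simp
    · simp
  right_inv w := by
    funext k
    rcases k with i | i
    · refine Fin.lastCases ?_ (fun j => ?_) i <;> simp
    · refine Fin.lastCases ?_ (fun j => ?_) i <;> simp
  map_add' u w := by
    funext k
    rcases k with i | i
    · refine Fin.lastCases ?_ (fun j => ?_) i <;> simp
    · refine Fin.lastCases ?_ (fun j => ?_) i <;> simp

theorem ePlus_cocycle (m : ℕ) (u w : (Fin m → ZMod 2 × ZMod 2) × (ZMod 2 × ZMod 2)) :
    ePlus m u ⬝ᵥ Aplus (m + 1) *ᵥ ePlus m w = S5396.beta m 0 u w := by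
  rw [aplus_form, Fin.sum_univ_castSucc]
  simp [ePlus, S5396.beta, bl]

/-- coordinates for the minus type -/
def eMinus (m : ℕ) : ((Fin m → ZMod 2 × ZMod 2) × (ZMod 2 × ZMod 2)) ≃+
    ((Fin m ⊕ Fin m) ⊕ Fin 2 → ZMod 2) where
  toFun u := Sum.elim (Sum.elim (fun i => (u.1 i).1) (fun i => (u.1 i).2)) ![u.2.1, u.2.2]
  invFun w := (fun i => (w (Sum.inl (Sum.inl i)), w (Sum.inl (Sum.inr i))),
    (w (Sum.inr 0), w (Sum.inr 1)))
  left_inv u := by
    apply Prod.ext
    · funext i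
      rfl
    · rfl
  right_inv w := by
    funext k
    rcases k with (i | i) | i
    · rfl
    · rfl
    · fin_cases i <;> rfl
  map_add' u w := by
    funext k
    rcases k with (i | i) | i
    · rfl
    · rfl
    · fin_cases i <;> rfl

theorem eMinus_cocycle (m : ℕ) (u w : (Fin m → ZMod 2 × ZMod 2) × (ZMod 2 × ZMod 2)) :
    eMinus m u ⬝ᵥ Aminus m *ᵥ eMinus m w = S5396.beta m 1 u w := by
  rw [aminus_form]
  simp [eMinus, S5396.beta, bl]
  ring

theorem qf_plus (n : ℕ) : qf (Aplus n) = Cfsg.quadFormPlus n (ZMod 2) := by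
  funext v
  unfold qf Cfsg.quadFormPlus
  exact aplus_form n v v

theorem qf_minus (m : ℕ) : qf (Aminus m) = Cfsg.quadFormMinus m (ZMod 2) 1 1 := by
  funext v
  unfold qf Cfsg.quadFormMinus
  rw [aminus_form]
  ring

theorem card_center_of_equiv {ι : Type} [Fintype ι] [DecidableEq ι] {m : ℕ} {s : ZMod 2}
    {A : Matrix ι ι (ZMod 2)} (e : ESG m s ≃* MG A) : Nat.card (Subgroup.center (MG A)) = 2 := by
  rw [← Nat.card_congr (Subgroup.centerCongr e).toEquiv, card_center]

/-- the outer automorphism group of the plus-type model -/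
theorem out_plus (m : ℕ) : Nonempty (Cfsg.Out (ESG m 0) ≃*
    ↥(Cfsg.isometryGroup (ZMod 2) (Cfsg.quadFormPlus (m + 1) (ZMod 2)))) := by
  have e := esgMG (ePlus m) (ePlus_cocycle m)
  have hc := card_center_of_equiv e
  have f := (outCongr e).trans (outEquiv hc)
  rw [qf_plus] at f
  exact ⟨f⟩

/-- the outer automorphism group of the minus-type model -/
theorem out_minus (m : ℕ) : Nonempty (Cfsg.Out (ESG m 1) ≃*
    ↥(Cfsg.isometryGroup (ZMod 2) (Cfsg.quadFormMinus m (ZMod 2) 1 1))) := by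
  have e := esgMG (eMinus m) (eMinus_cocycle m)
  have hc := card_center_of_equiv e
  have f := (outCongr e).trans (outEquiv hc)
  rw [qf_minus] at f
  exact ⟨f⟩

end Cfsg.Agent.H91
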