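import Mathlib
import Cfsg.Agent.H91.L34NDefs
import Cfsg.Agent.H73.L34Ea
import Cfsg.Agent.H18.L34Fus

/-! helper91: piece EAB of S3154. -/

set_option autoImplicit false

namespace Cfsg.Agent.H91.L34N

open Subgroup Cfsg.Agent.H60 Cfsg.Agent.H60.L34 Cfsg.Agent.H91.L34

universe u v

theorem eab : EabStmt.{u, v} := by
  intro X _ F _ _ hF φ hsurj hker hexp
  classical
  have h2F : (2 : F) = 0 := two_eq_zero_of_card hF
  have h11 : (1 : F) + 1 = 0 := one_add_one_eq_two.trans h2F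
  obtain ⟨ω, hω0, hω1⟩ := f4_exists hF
  have hω : (1 : F) + ω ≠ 0 := fun h => hω1 (add_left_cancel (h.trans h11.symm))
  have key : ∀ E : Subgroup (Matrix.ProjectiveSpecialLinearGroup (Fin 3) F),
      (∀ x ∈ E, x * x = 1) →
      (∀ x ∈ E, ∀ y ∈ E, x ≠ 1 → y ≠ 1 → ∃ c, c * x * c⁻¹ = y) →
      (∃ x ∈ E, ∃ y ∈ E, ∃ z ∈ E, x ≠ 1 ∧ y ≠ 1 ∧ z ≠ 1 ∧ x * y ≠ 1 ∧ x * z ≠ 1 ∧ y * z ≠ 1 ∧
        x * y * z ≠ 1) →
      ∀ w : X, φ w ∈ E → w * w = 1 := by
    intro E hE2 hfus hind w hw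
    refine Cfsg.Agent.H73.L34.ea φ.ker (E.comap φ) hker hexp ?_ ?_ ?_ ?_ w hw
    · intro k hk
      show φ k ∈ E
      rw [MonoidHom.mem_ker.mp hk]
      exact E.one_mem
    · intro x hx
      rw [MonoidHom.mem_ker, map_mul]
      exact hE2 _ hx
    · intro x hx y hy hxk hyk
      obtain ⟨c, hc⟩ := hfus (φ x) hx (φ y) hy (fun h => hxk (MonoidHom.mem_ker.mpr h))
        (fun h => hyk (MonoidHom.mem_ker.mpr h))
      obtain ⟨n, rfl⟩ := hsurj c
      refine ⟨n, ?_⟩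
      rw [MonoidHom.mem_ker, map_mul, map_mul, map_mul, map_inv, map_inv, hc, mul_inv_cancel]
    · obtain ⟨x, hx, y, hy, z, hz, h1, h2, h3, h4, h5, h6, h7⟩ := hind
      obtain ⟨x', rfl⟩ := hsurj x
      obtain ⟨y', rfl⟩ := hsurj y
      obtain ⟨z', rfl⟩ := hsurj z
      refine ⟨x', hx, y', hy, z', hz, fun h => h1 (MonoidHom.mem_ker.mp h),
        fun h => h2 (MonoidHom.mem_ker.mp h), fun h => h3 (MonoidHom.mem_ker.mp h),
        fun h => h4 ?_, fun h => h5 ?_, fun h => h6 ?_, fun h => h7 ?_⟩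
      · rw [← map_mul]; exact MonoidHom.mem_ker.mp h
      · rw [← map_mul]; exact MonoidHom.mem_ker.mp h
      · rw [← map_mul]; exact MonoidHom.mem_ker.mp h
      · rw [← map_mul, ← map_mul]; exact MonoidHom.mem_ker.mp h
  constructor
  · refine key (e1 F) ?_ ?_ ?_
    · rintro _ ⟨g, hg, rfl⟩
      rw [← map_mul, sq_of_p h2F g hg, map_one]
    · rintro _ ⟨g, hg, rfl⟩ _ ⟨g', hg', rfl⟩ hx hy
      exact Cfsg.Agent.H18.L34.fus1 g g' hg hg' (fun h => hx (by rw [h, map_one]))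
        (fun h => hy (by rw [h, map_one]))
    · refine ⟨heisPSL ⟨0, 1, 0⟩, Subgroup.mem_map_of_mem _ (mk_mem_sgA _ _),
        heisPSL ⟨0, ω, 0⟩, Subgroup.mem_map_of_mem _ (mk_mem_sgA _ _),
        heisPSL ⟨0, 0, 1⟩, Subgroup.mem_map_of_mem _ (mk_mem_sgA _ _), ?_, ?_, ?_, ?_, ?_, ?_, ?_⟩
      · exact psl_ne_one_of_s (by simp)
      · exact psl_ne_one_of_s (by simpa using hω0)
      · exact psl_ne_one_of_r (by simp)
      · rw [← map_mul]
        exact psl_ne_one_of_s (by simpa using hω)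
      · rw [← map_mul]
        exact psl_ne_one_of_s (by simp)
      · rw [← map_mul]
        exact psl_ne_one_of_s (by simpa using hω0)
      · rw [← map_mul, ← map_mul]
        exact psl_ne_one_of_s (by simpa using hω)
  · refine key (e2 F) ?_ ?_ ?_
    · rintro _ ⟨g, hg, rfl⟩
      rw [← map_mul, sq_of_s h2F g hg, map_one]
    · rintro _ ⟨g, hg, rfl⟩ _ ⟨g', hg', rfl⟩ hx hy
      exact Cfsg.Agent.H18.L34.fus2 g g' hg hg' (fun h => hx (by rw [h, map_one]))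
        (fun h => hy (by rw [h, map_one]))
    · refine ⟨heisPSL ⟨1, 0, 0⟩, Subgroup.mem_map_of_mem _ (mk_mem_sgB _ _),
        heisPSL ⟨ω, 0, 0⟩, Subgroup.mem_map_of_mem _ (mk_mem_sgB _ _),
        heisPSL ⟨0, 0, 1⟩, Subgroup.mem_map_of_mem _ (mk_mem_sgB _ _), ?_, ?_, ?_, ?_, ?_, ?_, ?_⟩
      · exact psl_ne_one_of_p (by simp)
      · exact psl_ne_one_of_p (by simpa using hω0)
      · exact psl_ne_one_of_r (by simp)
      · rw [← map_mul]
        exact psl_ne_one_of_p (by simpa using hω)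
      · rw [← map_mul]
        exact psl_ne_one_of_p (by simp)
      · rw [← map_mul]
        exact psl_ne_one_of_p (by simpa using hω0)
      · rw [← map_mul, ← map_mul]
        exact psl_ne_one_of_p (by simpa using hω)

end Cfsg.Agent.H91.L34N
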