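import Mathlib
import Cfsg.Agent.H91.L34NDefs
import Cfsg.Agent.H17.O4MinusB

/-! helper91: pieces PERF and ISO of S3154. -/

set_option autoImplicit false

namespace Cfsg.Agent.H91.L34N

universe u

theorem perf : PerfStmt.{u} := by
  intro F _ _ hF
  exact Cfsg.Agent.H17.sl2_perfect (by rw [hF])

theorem iso : IsoStmt.{u} := by
  intro F _ _ hF
  classical
  have h2 : (2 : F) = 0 := Cfsg.Agent.H60.L34.two_eq_zero_of_card hF
  have hc : Subgroup.center (Matrix.SpecialLinearGroup (Fin 2) F) = ⊥ := by
    rw [Subgroup.eq_bot_iff_forall]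
    intro A hA
    rw [Matrix.SpecialLinearGroup.mem_center_iff] at hA
    obtain ⟨r, hr, hrA⟩ := hA
    have hr1 : r = 1 := by
      have h3 : (r - 1) ^ 2 = 0 := by
        have h4 : (r - 1) ^ 2 = r ^ 2 - 2 * r + 1 := by ring
        rw [h4, h2, zero_mul, sub_zero]
        simp only [Fintype.card_fin] at hr
        rw [hr]
        have : (1 : F) + 1 = 2 := by norm_num
        rw [this, h2]
      have h5 := pow_eq_zero_iff (two_ne_zero) |>.mp h3
      exact sub_eq_zero.mp h5
    apply Subtype.ext
    rw [← hrA, hr1]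
    simp
  exact ⟨(QuotientGroup.quotientBot (G := Matrix.SpecialLinearGroup (Fin 2) F)).symm.trans
    (QuotientGroup.quotientMulEquivOfEq hc.symm)⟩

end Cfsg.Agent.H91.L34N
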