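import Mathlib
import Cfsg.Agent.H64.MgDefs

/-!
# MG-LCW (helper91, for helper64's S3620): `LCcoreStmt → LCStmt`
-/

set_option autoImplicit false
open scoped Pointwise
open MulAction

namespace Cfsg.Agent.H91.Mg

open Cfsg.Agent.H64.Mg

universe u v

theorem lcw (hcore : LCcoreStmt.{u, v}) : LCStmt.{u, v} := by
  intro M α _ _ _ _ hKT Δ hJC h1 h2 a ha
  have hJa : JC M ({a} : Finset α) := hKT {a} (by simp)
  -- pretransitivity
  have hpre : IsPretransitive (stabilizer M a) (SubMulAction.ofStabilizer M a) := by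
    constructor
    intro x y
    have hx : (x : α) ∉ ({a} : Finset α) := by
      rw [Finset.mem_singleton]; exact x.2
    have hy : (y : α) ∉ ({a} : Finset α) := by
      rw [Finset.mem_singleton]; exact y.2
    obtain ⟨g, hg, hgx⟩ := hJa _ hx _ hy
    have hga : g ∈ stabilizer M a := hg a (Finset.mem_singleton_self a)
    exact ⟨⟨g, hga⟩, Subtype.ext hgx⟩
  refine { toIsPretransitive := hpre, isTrivialBlock_of_isBlock := ?_ }
  intro B hB
  classical
  obtain ⟨B', hB'⟩ : ∃ B' : Finset α, ∀ x : α, x ∈ B' ↔ ∃ b ∈ B, (b : α) = x :=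
    ⟨Finset.univ.filter (fun x => ∃ b ∈ B, (b : α) = x), fun x => by simp⟩
  have haB' : a ∉ B' := by
    intro h
    obtain ⟨b, -, hb⟩ := (hB' a).mp h
    exact b.2 hb
  have hsm : ∀ (g : M) (hg : g • a = a) (x : α),
      x ∈ g • B' ↔ ∃ b ∈ (⟨g, hg⟩ : stabilizer M a) • B, (b : α) = x := by
    intro g hg x
    rw [Finset.mem_smul_finset]
    constructor
    · rintro ⟨y, hy, rfl⟩
      obtain ⟨b, hb, rfl⟩ := (hB' y).mp hy
      exact ⟨(⟨g, hg⟩ : stabilizer M a) • b, Set.smul_mem_smul_set hb, rfl⟩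
    · rintro ⟨b, hb, rfl⟩
      obtain ⟨c, hc, rfl⟩ := hb
      exact ⟨(c : α), (hB' _).mpr ⟨c, hc, rfl⟩, rfl⟩
  have hblock : ∀ g : M, g • a = a → g • B' = B' ∨ Disjoint (g • B') B' := by
    intro g hg
    rcases hB.smul_eq_or_disjoint (⟨g, hg⟩ : stabilizer M a) with h | h
    · left
      ext x
      rw [hsm g hg x, h, hB']
    · right
      rw [Finset.disjoint_left]
      intro x hx hx'
      obtain ⟨b, hb, rfl⟩ := (hsm g hg x).mp hx
      obtain ⟨c, hc, hcb⟩ := (hB' _).mp hx'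
      have hcb' : c = b := Subtype.ext hcb
      rw [hcb'] at hc
      exact Set.disjoint_left.mp h hb hc
  have hno : ¬ (2 ≤ B'.card ∧ B'.card + 2 ≤ Fintype.card α) := fun h =>
    hcore M α hKT Δ hJC h1 h2 a ha B' haB' h.1 h.2 hblock
  by_cases hsmall : B'.card ≤ 1
  · left
    intro b₁ hb₁ b₂ hb₂
    have e := Finset.card_le_one.mp hsmall (b₁ : α) ((hB' _).mpr ⟨b₁, hb₁, rfl⟩)
      (b₂ : α) ((hB' _).mpr ⟨b₂, hb₂, rfl⟩)
    exact Subtype.ext e
  · right
    have hbig : Fintype.card α < B'.card + 2 := by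
      by_contra hh
      exact hno ⟨by omega, by omega⟩
    have hsub : B' ⊆ Finset.univ.erase a := by
      intro x hx
      rw [Finset.mem_erase]
      exact ⟨fun h => haB' (h ▸ hx), Finset.mem_univ x⟩
    have hcard : (Finset.univ.erase a : Finset α).card ≤ B'.card := by
      rw [Finset.card_erase_of_mem (Finset.mem_univ a), Finset.card_univ]
      omega
    have heq : B' = Finset.univ.erase a := Finset.eq_of_subset_of_card_le hsub hcard
    ext b
    simp only [Set.mem_univ, iff_true]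
    have hb : (b : α) ∈ B' := by
      rw [heq, Finset.mem_erase]
      exact ⟨b.2, Finset.mem_univ _⟩
    obtain ⟨c, hc, hcb⟩ := (hB' _).mp hb
    have hcb' : c = b := Subtype.ext hcb
    rw [← hcb']; exact hc

/-- The piece MG-LCW, verbatim. -/
example (hcore : Cfsg.Agent.H64.Mg.LCcoreStmt.{u, v}) : Cfsg.Agent.H64.Mg.LCStmt.{u, v} :=
  lcw hcore

end Cfsg.Agent.H91.Mg
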