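import Mathlib
import Cfsg.Prelude.Def_Transfer

/-!
# A group of order 320 with `O_2` a class-two group of order 32 of "minus type"

The abstract counting lemma behind statement S4405: `H` normal of order 32 in `G` of order 320,
`Z ≤ H` central in `G` of exponent two containing all squares and commutators of `H`,
`C_G(H) ≤ H`, `H` the largest normal 2-subgroup and `H` without elementary abelian subgroups of
order larger than 4.  Then for an involution `T` outside `H`, a subgroup of order 4 of `C_H(T)` is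
all of `C_H(T)`.
-/

set_option autoImplicit false
open Cfsg

namespace Cfsg.Agent.H91

section order320

variable {G : Type*} [Group G]

/-- the elements of `G` that centralise every element of `S` modulo the central subgroup `Z` -/
def centMod (Z : Subgroup G) (hZ : ∀ c ∈ Z, ∀ g : G, g * c = c * g) (S : Set G) : Subgroup G where
  carrier := {g | ∀ h ∈ S, g * h * g⁻¹ * h⁻¹ ∈ Z}
  one_mem' := by
    intro h _
    simp
  mul_mem' := by
    intro a b ha hb h hh
    have h1 := hb h hh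
    have h2 := ha h hh
    have hc := hZ _ h1 a
    have e : a * b * h * (a * b)⁻¹ * h⁻¹ = (b * h * b⁻¹ * h⁻¹) * (a * h * a⁻¹ * h⁻¹) := by
      calc a * b * h * (a * b)⁻¹ * h⁻¹ = a * (b * h * b⁻¹ * h⁻¹) * h * a⁻¹ * h⁻¹ := by group
        _ = (b * h * b⁻¹ * h⁻¹) * a * h * a⁻¹ * h⁻¹ := by rw [hc]
        _ = _ := by group
    rw [e]
    exact Z.mul_mem h1 h2
  inv_mem' := by
    intro a ha h hh
    have h1 := ha h hh
    have hc := hZ _ (Z.inv_mem h1) a⁻¹
    have e : a⁻¹ * h * a⁻¹⁻¹ * h⁻¹ = (a * h * a⁻¹ * h⁻¹)⁻¹ := by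
      calc a⁻¹ * h * a⁻¹⁻¹ * h⁻¹ = a⁻¹ * (a * h * a⁻¹ * h⁻¹)⁻¹ * a := by group
        _ = (a * h * a⁻¹ * h⁻¹)⁻¹ * a⁻¹ * a := by rw [hc]
        _ = _ := by group
    rw [e]
    exact Z.inv_mem h1

theorem mem_centMod {Z : Subgroup G} {hZ : ∀ c ∈ Z, ∀ g : G, g * c = c * g} {S : Set G} {g : G} :
    g ∈ centMod Z hZ S ↔ ∀ h ∈ S, g * h * g⁻¹ * h⁻¹ ∈ Z := Iff.rfl

theorem centMod_anti {Z : Subgroup G} {hZ : ∀ c ∈ Z, ∀ g : G, g * c = c * g} {S S' : Set G}
    (h : S ⊆ S') : centMod Z hZ S' ≤ centMod Z hZ S := fun _ hg x hx => hg x (h hx)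

theorem pow_conj_central {Z : Subgroup G} (hZ : ∀ c ∈ Z, ∀ g : G, g * c = c * g)
    {g h c : G} (hc : c ∈ Z) (hgh : g * h * g⁻¹ = c * h) (n : ℕ) :
    g ^ n * h * (g ^ n)⁻¹ = c ^ n * h := by
  induction n with
  | zero => simp
  | succ k ih =>
    have hck : c ^ k ∈ Z := Z.pow_mem hc k
    have h1 := hZ _ hck g
    calc g ^ (k + 1) * h * (g ^ (k + 1))⁻¹ = g * (g ^ k * h * (g ^ k)⁻¹) * g⁻¹ := by
          rw [pow_succ', mul_inv_rev]; simp only [mul_assoc]
      _ = g * (c ^ k * h) * g⁻¹ := by rw [ih]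
      _ = (g * c ^ k) * h * g⁻¹ := by simp only [mul_assoc]
      _ = (c ^ k * g) * h * g⁻¹ := by rw [h1]
      _ = c ^ k * (g * h * g⁻¹) := by simp only [mul_assoc]
      _ = c ^ k * (c * h) := by rw [hgh]
      _ = c ^ (k + 1) * h := by rw [pow_succ, mul_assoc]

/-- an element of order 5 acting trivially modulo `Z` on `h` centralises `h` -/
theorem conj_eq_of_pow_five {Z : Subgroup G} (hZ : ∀ c ∈ Z, ∀ g : G, g * c = c * g)
    (hZ2 : ∀ c ∈ Z, c * c = 1) {g h : G} (hg : g ^ 5 = 1) (hgh : g * h * g⁻¹ * h⁻¹ ∈ Z) :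
    g * h * g⁻¹ = h := by
  have e : g * h * g⁻¹ = (g * h * g⁻¹ * h⁻¹) * h := by group
  have h5 := pow_conj_central hZ hgh e 5
  rw [hg] at h5
  have hc2 := hZ2 _ hgh
  have h6 : (g * h * g⁻¹ * h⁻¹) ^ 5 = g * h * g⁻¹ * h⁻¹ := by
    calc (g * h * g⁻¹ * h⁻¹) ^ 5
        = ((g * h * g⁻¹ * h⁻¹) * (g * h * g⁻¹ * h⁻¹)) * ((g * h * g⁻¹ * h⁻¹) * (g * h * g⁻¹ * h⁻¹))
          * (g * h * g⁻¹ * h⁻¹) := by
          simp only [pow_succ, pow_zero, one_mul, mul_assoc]
      _ = g * h * g⁻¹ * h⁻¹ := by rw [hc2]; simp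
  rw [h6] at h5
  simp only [one_mul, inv_one, mul_one] at h5
  have h7 : g * h * g⁻¹ * h⁻¹ = 1 := by
    have := congrArg (· * h⁻¹) h5
    simp only [mul_inv_cancel, mul_inv_cancel_right] at this
    exact this.symm
  rw [e, h7, one_mul]

/-- an element of order 5 centralises exactly a subgroup of order 2 of `H` -/
theorem card_cent_five_le_two [Finite G] (H : Subgroup G) [hHn : H.Normal]
    (hH : Nat.card H = 32) (hCH : Subgroup.centralizer (H : Set G) ≤ H)
    (g : G) (hg : orderOf g = 5) :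
    Nat.card ↥(H ⊓ Subgroup.centralizer ({g} : Set G)) ≤ 2 := by
  classical
  have hg5 : g ^ 5 = 1 := by rw [← hg]; exact pow_orderOf_eq_one g
  have : Fintype ↥H := Fintype.ofFinite _
  let f : Function.End ↥H := fun h => ⟨g * h * g⁻¹, hHn.conj_mem h h.2 g⟩
  have hfn : ∀ (n : ℕ) (h : ↥H), (((f ^ n) h : ↥H) : G) = g ^ n * h * (g ^ n)⁻¹ := by
    intro n
    induction n with
    | zero =>
      intro h
      rw [pow_zero, pow_zero]
      show ((h : ↥H) : G) = 1 * h * (1 : G)⁻¹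
      simp
    | succ k ih =>
      intro h
      rw [pow_succ]
      show (((f ^ k) (f h) : ↥H) : G) = _
      rw [ih (f h)]
      show g ^ k * (g * h * g⁻¹) * (g ^ k)⁻¹ = _
      rw [pow_succ, mul_inv_rev]
      simp only [mul_assoc]
  have hf5 : f ^ 5 ^ 1 = 1 := by
    rw [pow_one]
    funext h
    apply Subtype.ext
    rw [hfn 5 h, hg5]
    show 1 * (h : G) * (1 : G)⁻¹ = (h : G)
    simp
  have : Fact (Nat.Prime 5) := ⟨by norm_num⟩
  have hmod := Equiv.Perm.card_fixedPoints_modEq (p := 5) (n := 1) hf5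
  have e : ↥(H ⊓ Subgroup.centralizer ({g} : Set G)) ≃ ↑(Function.fixedPoints f) :=
    { toFun := fun x => ⟨⟨x.1, x.2.1⟩, by
        have hx := Subgroup.mem_centralizer_singleton_iff.mp x.2.2
        show f ⟨x.1, x.2.1⟩ = ⟨x.1, x.2.1⟩
        apply Subtype.ext
        show g * x.1 * g⁻¹ = x.1
        rw [← hx, mul_inv_cancel_right]⟩
      invFun := fun y => ⟨y.1.1, Subgroup.mem_inf.mpr ⟨y.1.2, by
        rw [Subgroup.mem_centralizer_singleton_iff]
        have hy : f y.1 = y.1 := y.2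
        have hy' : g * (y.1 : G) * g⁻¹ = (y.1 : G) := congrArg Subtype.val hy
        calc (y.1 : G) * g = (g * (y.1 : G) * g⁻¹) * g := by rw [hy']
          _ = g * (y.1 : G) := by simp only [inv_mul_cancel_right]⟩⟩
      left_inv := fun x => rfl
      right_inv := fun y => rfl }
  have hcard : Nat.card ↥(H ⊓ Subgroup.centralizer ({g} : Set G))
      = Fintype.card ↑(Function.fixedPoints f) := by
    rw [Nat.card_congr e, Nat.card_eq_fintype_card]
  have hH' : Fintype.card ↥H = 32 := by rw [← Nat.card_eq_fintype_card]; exact hH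
  rw [hH', ← hcard] at hmod
  have hdvd : Nat.card ↥(H ⊓ Subgroup.centralizer ({g} : Set G)) ∣ 32 := by
    rw [← hH]
    exact Subgroup.card_dvd_of_le inf_le_left
  have hne : Nat.card ↥(H ⊓ Subgroup.centralizer ({g} : Set G)) ≠ 32 := by
    intro h32
    have heq : H ⊓ Subgroup.centralizer ({g} : Set G) = H :=
      Subgroup.eq_of_le_of_card_ge inf_le_left (by rw [h32, hH])
    have hgc : g ∈ Subgroup.centralizer (H : Set G) := by
      rw [Subgroup.mem_centralizer_iff]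
      intro h hh
      have : h ∈ H ⊓ Subgroup.centralizer ({g} : Set G) := by rw [heq]; exact hh
      exact Subgroup.mem_centralizer_singleton_iff.mp this.2
    have hgH : g ∈ H := hCH hgc
    have h1 : orderOf (⟨g, hgH⟩ : ↥H) ∣ Nat.card ↥H := orderOf_dvd_natCard _
    rw [← Subgroup.orderOf_coe, hH] at h1
    simp only [hg] at h1
    omega
  have hle : Nat.card ↥(H ⊓ Subgroup.centralizer ({g} : Set G)) ≤ 32 :=
    Nat.le_of_dvd (by norm_num) hdvd
  generalize Nat.card ↥(H ⊓ Subgroup.centralizer ({g} : Set G)) = b at *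
  unfold Nat.ModEq at hmod
  interval_cases b <;> omega


/-- for `P ≤ H`: `|P| * [H : P] = |H|` -/
theorem card_mul_relIndex_eq {P H : Subgroup G} (h : P ≤ H) :
    Nat.card P * P.relIndex H = Nat.card H := by
  have := Subgroup.relIndex_mul_relIndex ⊥ P H bot_le h
  rwa [Subgroup.relIndex_bot_left, Subgroup.relIndex_bot_left] at this

section main

variable [Finite G] (H Z : Subgroup G) [hHn : H.Normal]
  (hZc : ∀ c ∈ Z, ∀ g : G, g * c = c * g)

/-- the elements of `H` commuting with `T` modulo `Z` -/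
def nearCent (T : G) : Subgroup G := H ⊓ centMod Z hZc {T}

omit [Finite G] hHn in
theorem mem_nearCent {T h : G} :
    h ∈ nearCent H Z hZc T ↔ h ∈ H ∧ h * T * h⁻¹ * T⁻¹ ∈ Z := by
  unfold nearCent
  rw [Subgroup.mem_inf, mem_centMod]
  simp

include hHn in
/-- Step (I): the elements of `H` commuting with `T` modulo `Z` form a subgroup of order at most
8. -/
theorem card_nearCent_le (hG : Nat.card G = 320) (hH : Nat.card H = 32)
    (hZ2 : ∀ c ∈ Z, c * c = 1)
    (hcomm : ∀ h ∈ H, ∀ k ∈ H, h * k * h⁻¹ * k⁻¹ ∈ Z)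
    (hCH : Subgroup.centralizer (H : Set G) ≤ H)
    (hO2 : ∀ A : Subgroup G, A.Normal → IsPGroup 2 A → A ≤ H)
    (T : G) (hTH : T ∉ H) :
    Nat.card ↥(nearCent H Z hZc T) ≤ 8 := by
  classical
  by_contra hcon
  have hP1H : nearCent H Z hZc T ≤ H := inf_le_left
  have hdvd : Nat.card ↥(nearCent H Z hZc T) ∣ 32 := by
    rw [← hH]; exact Subgroup.card_dvd_of_le hP1H
  have h16 : 16 ≤ Nat.card ↥(nearCent H Z hZc T) := by
    have hle : Nat.card ↥(nearCent H Z hZc T) ≤ 32 := Nat.le_of_dvd (by norm_num) hdvd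
    generalize Nat.card ↥(nearCent H Z hZc T) = b at *
    interval_cases b <;> omega
  -- an element of order 5
  have : Fact (Nat.Prime 5) := ⟨by norm_num⟩
  obtain ⟨s, hs⟩ := exists_prime_orderOf_dvd_card' (G := G) 5 (by rw [hG]; norm_num)
  have hs5 : s ^ 5 = 1 := by rw [← hs]; exact pow_orderOf_eq_one s
  set P1 := nearCent H Z hZc T with hP1
  set P2 := P1.map (MulAut.conj s).toMonoidHom with hP2
  have hcard2 : Nat.card ↥P2 = Nat.card ↥P1 :=
    Subgroup.card_map_of_injective (MulAut.conj s).injective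
  have hP2H : P2 ≤ H := by
    rintro x ⟨h, hh, rfl⟩
    exact hHn.conj_mem h (hP1H hh) s
  have hr1 : P1.relIndex H ≤ 2 := by
    have := card_mul_relIndex_eq hP1H
    rw [hH] at this
    by_contra hc
    have h3 : 3 ≤ P1.relIndex H := by omega
    nlinarith
  have hr2 : P2.relIndex H ≤ 2 := by
    have := card_mul_relIndex_eq hP2H
    rw [hH, hcard2] at this
    by_contra hc
    have h3 : 3 ≤ P2.relIndex H := by omega
    nlinarith
  have hQH : P1 ⊓ P2 ≤ H := inf_le_left.trans hP1H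
  have hQ8 : 8 ≤ Nat.card ↥(P1 ⊓ P2) := by
    have h1 := card_mul_relIndex_eq hQH
    rw [hH] at h1
    have h2 : (P1 ⊓ P2).relIndex H ≤ P1.relIndex H * P2.relIndex H := Subgroup.relIndex_inf_le
    have h3 : (P1 ⊓ P2).relIndex H ≤ 4 := by nlinarith
    by_contra hc
    have h7 : Nat.card ↥(P1 ⊓ P2) ≤ 7 := by omega
    nlinarith
  -- the groups centralising `P1`, resp. `P1 ⊓ P2`, modulo `Z`
  set A1 := centMod Z hZc (P1 : Set G) with hA1
  set A := centMod Z hZc ((P1 ⊓ P2 : Subgroup G) : Set G) with hA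
  have hA1A : A1 ≤ A := centMod_anti (fun x hx => hx.1)
  have hHA1 : H ≤ A1 := by
    intro k hk h hh
    exact hcomm k hk h (hP1H hh)
  have hTA1 : T ∈ A1 := by
    intro h hh
    have h1 := ((mem_nearCent H Z hZc).mp hh).2
    have e : T * h * T⁻¹ * h⁻¹ = (h * T * h⁻¹ * T⁻¹)⁻¹ := by group
    rw [e]
    exact Z.inv_mem h1
  have hsA1 : A1.map (MulAut.conj s).toMonoidHom ≤ A := by
    rintro x ⟨g, hg, rfl⟩ y hy
    obtain ⟨h, hh, rfl⟩ := hy.2
    have h1 : g * h * g⁻¹ * h⁻¹ ∈ Z := hg h hh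
    have h2 := hZc _ h1 s
    show s * g * s⁻¹ * (s * h * s⁻¹) * (s * g * s⁻¹)⁻¹ * (s * h * s⁻¹)⁻¹ ∈ Z
    have e : s * g * s⁻¹ * (s * h * s⁻¹) * (s * g * s⁻¹)⁻¹ * (s * h * s⁻¹)⁻¹
        = g * h * g⁻¹ * h⁻¹ := by
      calc s * g * s⁻¹ * (s * h * s⁻¹) * (s * g * s⁻¹)⁻¹ * (s * h * s⁻¹)⁻¹
          = s * (g * h * g⁻¹ * h⁻¹) * s⁻¹ := by group
        _ = (g * h * g⁻¹ * h⁻¹) * s * s⁻¹ := by rw [h2]
        _ = _ := by group
    rw [e]
    exact h1
  by_cases h5 : 5 ∣ Nat.card ↥A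
  · obtain ⟨x, hx⟩ := exists_prime_orderOf_dvd_card' (G := ↥A) 5 h5
    have hx5 : (x : G) ^ 5 = 1 := by
      have : x ^ 5 = 1 := by rw [← hx]; exact pow_orderOf_eq_one x
      have := congrArg Subtype.val this
      simpa using this
    have hxo : orderOf (x : G) = 5 := by rw [Subgroup.orderOf_coe]; exact hx
    have hle : P1 ⊓ P2 ≤ H ⊓ Subgroup.centralizer ({(x : G)} : Set G) := by
      intro h hh
      refine Subgroup.mem_inf.mpr ⟨hQH hh, ?_⟩
      rw [Subgroup.mem_centralizer_singleton_iff]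
      have h1 := conj_eq_of_pow_five hZc hZ2 hx5 (x.2 h hh)
      calc h * (x : G) = ((x : G) * h * (x : G)⁻¹) * (x : G) := by rw [h1]
        _ = (x : G) * h := by simp only [inv_mul_cancel_right]
    have h2 := card_cent_five_le_two H hH hCH (x : G) hxo
    have h3 := Subgroup.card_le_of_le hle
    omega
  · have hAdvd : Nat.card ↥A ∣ 64 := by
      have h1 : Nat.card ↥A ∣ 64 * 5 := by
        have := Subgroup.card_subgroup_dvd_card A
        rw [hG] at this
        exact this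
      have hcop : Nat.Coprime (Nat.card ↥A) 5 :=
        (Nat.Coprime.symm ((Nat.Prime.coprime_iff_not_dvd (by norm_num)).mpr h5))
      exact hcop.dvd_of_dvd_mul_right h1
    have hA1dvd : Nat.card ↥A1 ∣ Nat.card ↥A := Subgroup.card_dvd_of_le hA1A
    have hHdvd : 32 ∣ Nat.card ↥A1 := by
      rw [← hH]; exact Subgroup.card_dvd_of_le hHA1
    have hA1ne : Nat.card ↥A1 ≠ 32 := by
      intro h32
      have : H = A1 := Subgroup.eq_of_le_of_card_ge hHA1 (by rw [h32, hH])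
      exact hTH (this ▸ hTA1)
    have hA64 : Nat.card ↥A = 64 ∧ Nat.card ↥A1 = 64 := by
      have hle : Nat.card ↥A ≤ 64 := Nat.le_of_dvd (by norm_num) hAdvd
      have hApos : 0 < Nat.card ↥A := Nat.pos_of_dvd_of_pos hAdvd (by norm_num)
      have hle1 : Nat.card ↥A1 ≤ Nat.card ↥A := Nat.le_of_dvd hApos hA1dvd
      obtain ⟨k, hk⟩ := hHdvd
      have hk2 : k = 2 := by
        have : k ≤ 2 := by omega
        interval_cases k
        · rw [hk] at hA1dvd
          simp at hA1dvd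
          omega
        · omega
        · rfl
      subst hk2
      have : Nat.card ↥A1 = 64 := by omega
      exact ⟨by omega, this⟩
    have hAeq : A1 = A := Subgroup.eq_of_le_of_card_ge hA1A (by rw [hA64.1, hA64.2])
    have hsAeq : A1.map (MulAut.conj s).toMonoidHom = A :=
      Subgroup.eq_of_le_of_card_ge hsA1 (by
        rw [Subgroup.card_map_of_injective (MulAut.conj s).injective, hA64.1, hA64.2])
    have hsN : s ∈ Subgroup.normalizer (A1 : Set G) := by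
      rw [Subgroup.mem_normalizer_iff]
      intro h
      constructor
      · intro hh
        have : s * h * s⁻¹ ∈ A1.map (MulAut.conj s).toMonoidHom := ⟨h, hh, rfl⟩
        rw [hsAeq, ← hAeq] at this
        exact this
      · intro hh
        rw [hAeq, ← hsAeq] at hh
        obtain ⟨h', hh', he⟩ := hh
        have he' : s * h' * s⁻¹ = s * h * s⁻¹ := he
        have : h' = h := by
          have := congrArg (fun t => s⁻¹ * t * s) he'
          simpa [mul_assoc] using this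
        rw [← this]
        exact hh'
    have hNtop : Subgroup.normalizer (A1 : Set G) = ⊤ := by
      rw [← Subgroup.card_eq_iff_eq_top, hG]
      have h64 : 64 ∣ Nat.card ↥(Subgroup.normalizer (A1 : Set G)) := by
        rw [← hA64.2]; exact Subgroup.card_dvd_of_le Subgroup.le_normalizer
      have h5' : 5 ∣ Nat.card ↥(Subgroup.normalizer (A1 : Set G)) := by
        have := orderOf_dvd_natCard (⟨s, hsN⟩ : ↥(Subgroup.normalizer (A1 : Set G)))
        rw [← Subgroup.orderOf_coe] at this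
        simpa [hs] using this
      have h320 : 64 * 5 ∣ Nat.card ↥(Subgroup.normalizer (A1 : Set G)) :=
        Nat.Coprime.mul_dvd_of_dvd_of_dvd (by norm_num) h64 h5'
      have hdv : Nat.card ↥(Subgroup.normalizer (A1 : Set G)) ∣ 320 := by
        rw [← hG]; exact Subgroup.card_subgroup_dvd_card _
      exact Nat.dvd_antisymm hdv h320
    have hA1n : A1.Normal := Subgroup.normalizer_eq_top_iff.mp hNtop
    have hA1p : IsPGroup 2 ↥A1 := IsPGroup.of_card (n := 6) (by rw [hA64.2]; norm_num)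
    exact hTH (hO2 A1 hA1n hA1p hTA1)

include hHn in
/-- Step (II): `T` does not centralise all of `nearCent`, as otherwise `H` would contain an
elementary abelian subgroup with at least 5 elements. -/
theorem nearCent_ne (hH : Nat.card H = 32) (hZH : Z ≤ H)
    (hZ2 : ∀ c ∈ Z, c * c = 1)
    (hcomm : ∀ h ∈ H, ∀ k ∈ H, h * k * h⁻¹ * k⁻¹ ∈ Z)
    (hsq : ∀ h ∈ H, h * h ∈ Z)
    (hminus : ∀ A : Subgroup G, A ≤ H → Cfsg.IsElementaryAbelian 2 A → Nat.card A ≤ 4)
    (z : G) (hz : z ∈ Z) (hz1 : z ≠ 1)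
    (T : G) (hT : T * T = 1)
    (h8 : Nat.card ↥(nearCent H Z hZc T) ≤ 8) :
    H ⊓ Subgroup.centralizer ({T} : Set G) ≠ nearCent H Z hZc T := by
  classical
  intro heq
  have hTinv : T⁻¹ = T := inv_eq_of_mul_eq_one_left hT
  have hP1H : nearCent H Z hZc T ≤ H := inf_le_left
  have hφH : ∀ h ∈ H, h * T * h⁻¹ * T⁻¹ ∈ H := by
    intro h hh
    have h1 : T * h⁻¹ * T⁻¹ ∈ H := hHn.conj_mem _ (H.inv_mem hh) T
    have e : h * T * h⁻¹ * T⁻¹ = h * (T * h⁻¹ * T⁻¹) := by group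
    rw [e]
    exact H.mul_mem hh h1
  have hφconj : ∀ h : G, T * (h * T * h⁻¹ * T⁻¹) * T⁻¹ = (h * T * h⁻¹ * T⁻¹)⁻¹ := by
    intro h
    rw [hTinv]
    calc T * (h * T * h⁻¹ * T) * T = T * h * T * h⁻¹ * (T * T) := by group
      _ = T * h * T * h⁻¹ := by rw [hT, mul_one]
      _ = (h * T * h⁻¹ * T)⁻¹ := by
          rw [mul_inv_rev, mul_inv_rev, mul_inv_rev, inv_inv, hTinv]
          simp only [mul_assoc]
  have hφP : ∀ h ∈ H, h * T * h⁻¹ * T⁻¹ ∈ nearCent H Z hZc T := by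
    intro h hh
    rw [mem_nearCent]
    refine ⟨hφH h hh, ?_⟩
    have h1 := hφconj h
    have e : (h * T * h⁻¹ * T⁻¹) * T * (h * T * h⁻¹ * T⁻¹)⁻¹ * T⁻¹
        = (h * T * h⁻¹ * T⁻¹) * (T * (h * T * h⁻¹ * T⁻¹) * T⁻¹)⁻¹ := by group
    rw [e, h1, inv_inv]
    exact hsq _ (hφH h hh)
  have hφsq : ∀ h ∈ H, (h * T * h⁻¹ * T⁻¹) * (h * T * h⁻¹ * T⁻¹) = 1 := by
    intro h hh
    have h1 : h * T * h⁻¹ * T⁻¹ ∈ H ⊓ Subgroup.centralizer ({T} : Set G) := by
      rw [heq]; exact hφP h hh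
    have h2 := Subgroup.mem_centralizer_singleton_iff.mp h1.2
    have h3 := hφconj h
    have h4 : T * (h * T * h⁻¹ * T⁻¹) * T⁻¹ = h * T * h⁻¹ * T⁻¹ := by
      rw [← h2, mul_inv_cancel_right]
    rw [h4] at h3
    calc (h * T * h⁻¹ * T⁻¹) * (h * T * h⁻¹ * T⁻¹)
        = (h * T * h⁻¹ * T⁻¹) * (h * T * h⁻¹ * T⁻¹)⁻¹ := by rw [← h3]
      _ = 1 := mul_inv_cancel _
  -- two elements of `H`, independent modulo `nearCent`
  have hrel := card_mul_relIndex_eq hP1H
  rw [hH] at hrel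
  have hr1 : (nearCent H Z hZc T).relIndex H ≠ 1 := by
    intro h; rw [h] at hrel; omega
  have hr2 : (nearCent H Z hZc T).relIndex H ≠ 2 := by
    intro h; rw [h] at hrel; omega
  have hnotle : ¬ H ≤ nearCent H Z hZc T := fun h => hr1 (Subgroup.relIndex_eq_one.mpr h)
  obtain ⟨h₁, hh₁, hh₁P⟩ := SetLike.not_le_iff_exists.mp hnotle
  have hex : ∃ b ∈ H, b ∉ nearCent H Z hZc T ∧ b * h₁⁻¹ ∉ nearCent H Z hZc T := by
    by_contra hcon
    push Not at hcon
    apply hr2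
    rw [Subgroup.relIndex_eq_two_iff]
    refine ⟨h₁⁻¹, H.inv_mem hh₁, fun b hb => ?_⟩
    by_cases hbP : b ∈ nearCent H Z hZc T
    · right
      refine ⟨hbP, fun hba => hh₁P ?_⟩
      have h1 : h₁⁻¹ ∈ nearCent H Z hZc T := by
        have := (nearCent H Z hZc T).mul_mem ((nearCent H Z hZc T).inv_mem hbP) hba
        simpa using this
      simpa using (nearCent H Z hZc T).inv_mem h1
    · left
      exact ⟨hcon b hb hbP, hbP⟩
  obtain ⟨b, hb, hbP, hbh⟩ := hex
  have hc1H := hφH h₁ hh₁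
  have hc2H := hφH b hb
  have hc1sq := hφsq h₁ hh₁
  have hc2sq := hφsq b hb
  have hc1Z : h₁ * T * h₁⁻¹ * T⁻¹ ∉ Z := fun h => hh₁P ((mem_nearCent H Z hZc).mpr ⟨hh₁, h⟩)
  have hc2Z : b * T * b⁻¹ * T⁻¹ ∉ Z := fun h => hbP ((mem_nearCent H Z hZc).mpr ⟨hb, h⟩)
  have hc12 : ∀ ζ ∈ Z, b * T * b⁻¹ * T⁻¹ ≠ (h₁ * T * h₁⁻¹ * T⁻¹) * ζ := by
    intro ζ hζ he
    apply hbh
    rw [mem_nearCent]
    have hbh₁ : b * h₁⁻¹ ∈ H := H.mul_mem hb (H.inv_mem hh₁)
    refine ⟨hbh₁, ?_⟩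
    have e : (b * h₁⁻¹) * T * (b * h₁⁻¹)⁻¹ * T⁻¹
        = (b * h₁⁻¹) * (h₁ * T * h₁⁻¹ * T⁻¹)⁻¹ * (b * h₁⁻¹)⁻¹ * (b * T * b⁻¹ * T⁻¹) := by group
    rw [e, he]
    have h1 := hcomm (b * h₁⁻¹) hbh₁ (h₁ * T * h₁⁻¹ * T⁻¹)⁻¹ (H.inv_mem hc1H)
    rw [inv_inv] at h1
    have e2 : (b * h₁⁻¹) * (h₁ * T * h₁⁻¹ * T⁻¹)⁻¹ * (b * h₁⁻¹)⁻¹ * ((h₁ * T * h₁⁻¹ * T⁻¹) * ζ)
        = ((b * h₁⁻¹) * (h₁ * T * h₁⁻¹ * T⁻¹)⁻¹ * (b * h₁⁻¹)⁻¹ * (h₁ * T * h₁⁻¹ * T⁻¹)) * ζ := by
      simp only [mul_assoc]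
    rw [e2]
    exact Z.mul_mem h1 hζ
  -- the two commutators commute
  have hcc : (h₁ * T * h₁⁻¹ * T⁻¹) * (b * T * b⁻¹ * T⁻¹)
      = (b * T * b⁻¹ * T⁻¹) * (h₁ * T * h₁⁻¹ * T⁻¹) := by
    have hζ : h₁ * (b * T * b⁻¹ * T⁻¹) * h₁⁻¹ * (b * T * b⁻¹ * T⁻¹)⁻¹ ∈ Z :=
      hcomm h₁ hh₁ _ hc2H
    have e : (h₁ * b) * T * (h₁ * b)⁻¹ * T⁻¹
        = (h₁ * (b * T * b⁻¹ * T⁻¹) * h₁⁻¹ * (b * T * b⁻¹ * T⁻¹)⁻¹)
          * ((b * T * b⁻¹ * T⁻¹) * (h₁ * T * h₁⁻¹ * T⁻¹)) := by group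
    have h1 := hφsq (h₁ * b) (H.mul_mem hh₁ hb)
    rw [e] at h1
    generalize h₁ * (b * T * b⁻¹ * T⁻¹) * h₁⁻¹ * (b * T * b⁻¹ * T⁻¹)⁻¹ = ζ at hζ h1
    generalize h₁ * T * h₁⁻¹ * T⁻¹ = c₁ at hc1sq h1 ⊢
    generalize b * T * b⁻¹ * T⁻¹ = c₂ at hc2sq h1 ⊢
    have hζc := hZc ζ hζ (c₂ * c₁)
    have hζ2 := hZ2 ζ hζ
    have h2 : (c₂ * c₁) * (c₂ * c₁) = 1 := by
      calc (c₂ * c₁) * (c₂ * c₁) = (ζ * ζ) * ((c₂ * c₁) * (c₂ * c₁)) := by rw [hζ2, one_mul]
        _ = ζ * ((c₂ * c₁) * ζ) * (c₂ * c₁) := by rw [hζc]; simp only [mul_assoc]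
        _ = (ζ * (c₂ * c₁)) * (ζ * (c₂ * c₁)) := by simp only [mul_assoc]
        _ = 1 := h1
    have h3 : c₂ * c₁ = (c₂ * c₁)⁻¹ := eq_inv_of_mul_eq_one_left h2
    have h4 : c₁⁻¹ = c₁ := inv_eq_of_mul_eq_one_left hc1sq
    have h5 : c₂⁻¹ = c₂ := inv_eq_of_mul_eq_one_left hc2sq
    rw [h3, mul_inv_rev, h4, h5]
  generalize h₁ * T * h₁⁻¹ * T⁻¹ = c₁ at hc1H hc1sq hc1Z hc12 hcc
  generalize b * T * b⁻¹ * T⁻¹ = c₂ at hc2H hc2sq hc2Z hc12 hcc
  -- the elementary abelian subgroup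
  have hEH : Subgroup.closure ({z, c₁, c₂} : Set G) ≤ H := by
    rw [Subgroup.closure_le]
    rintro x (rfl | rfl | rfl)
    · exact hZH hz
    · exact hc1H
    · exact hc2H
  have hEc : IsMulCommutative ↥(Subgroup.closure ({z, c₁, c₂} : Set G)) := by
    apply Subgroup.isMulCommutative_closure
    rintro x (rfl | rfl | rfl) y (rfl | rfl | rfl)
    · rfl
    · exact (hZc x hz y).symm
    · exact (hZc x hz y).symm
    · exact hZc y hz x
    · rfl
    · exact hcc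
    · exact hZc y hz x
    · exact hcc.symm
    · rfl
  have hEe : ∀ a ∈ Subgroup.closure ({z, c₁, c₂} : Set G), a ^ 2 = 1 := by
    intro a ha
    induction ha using Subgroup.closure_induction with
    | mem x hx =>
      rw [pow_two]
      rcases hx with rfl | rfl | rfl
      · exact hZ2 x hz
      · exact hc1sq
      · exact hc2sq
    | one => simp
    | mul x y hx hy ihx ihy =>
      have hxy : x * y = y * x :=
        congrArg Subtype.val (hEc.is_comm.comm ⟨x, hx⟩ ⟨y, hy⟩)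
      rw [pow_two] at *
      calc x * y * (x * y) = x * (y * x) * y := by simp only [mul_assoc]
        _ = x * (x * y) * y := by rw [hxy]
        _ = (x * x) * (y * y) := by simp only [mul_assoc]
        _ = 1 := by rw [ihx, ihy, one_mul]
    | inv x hx ih => rw [inv_pow, ih, inv_one]
  have hcard := hminus _ hEH ⟨hEc, hEe⟩
  -- five distinct elements
  have hsub : ((({1, z, c₁, c₁ * z, c₂} : Finset G) : Set G))
      ⊆ (Subgroup.closure ({z, c₁, c₂} : Set G) : Set G) := by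
    intro x hx
    have hzE : z ∈ Subgroup.closure ({z, c₁, c₂} : Set G) := Subgroup.subset_closure (by simp)
    have hc1E : c₁ ∈ Subgroup.closure ({z, c₁, c₂} : Set G) := Subgroup.subset_closure (by simp)
    have hc2E : c₂ ∈ Subgroup.closure ({z, c₁, c₂} : Set G) := Subgroup.subset_closure (by simp)
    simp only [Finset.coe_insert, Finset.coe_singleton, Set.mem_insert_iff,
      Set.mem_singleton_iff] at hx
    rcases hx with rfl | rfl | rfl | rfl | rfl
    · exact Subgroup.one_mem _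
    · exact hzE
    · exact hc1E
    · exact Subgroup.mul_mem _ hc1E hzE
    · exact hc2E
  have h1z : (1 : G) ≠ z := fun h => hz1 h.symm
  have h1c1 : (1 : G) ≠ c₁ := fun h => hc1Z (h ▸ Z.one_mem)
  have h1c1z : (1 : G) ≠ c₁ * z := by
    intro h
    apply hc1Z
    have : c₁ = z⁻¹ := eq_inv_of_mul_eq_one_left h.symm
    rw [this]
    exact Z.inv_mem hz
  have h1c2 : (1 : G) ≠ c₂ := fun h => hc2Z (h ▸ Z.one_mem)
  have hzc1 : z ≠ c₁ := fun h => hc1Z (h ▸ hz)
  have hzc1z : z ≠ c₁ * z := by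
    intro h
    apply h1c1
    have := mul_right_cancel (a := (1 : G)) (b := z) (c := c₁) (by rw [one_mul]; exact h)
    exact this
  have hzc2 : z ≠ c₂ := fun h => hc2Z (h ▸ hz)
  have hc1c1z : c₁ ≠ c₁ * z := by
    intro h
    apply hz1
    have := mul_left_cancel (a := c₁) (b := 1) (c := z) (by rw [mul_one]; exact h)
    exact this.symm
  have hc1c2 : c₁ ≠ c₂ := fun h => hc12 1 Z.one_mem (by rw [mul_one]; exact h.symm)
  have hc1zc2 : c₁ * z ≠ c₂ := fun h => hc12 z hz h.symm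
  have h5 : ({1, z, c₁, c₁ * z, c₂} : Finset G).card = 5 := by
    rw [Finset.card_insert_of_notMem, Finset.card_insert_of_notMem, Finset.card_insert_of_notMem,
      Finset.card_insert_of_notMem, Finset.card_singleton]
    · simp [hc1zc2]
    · simp [hc1c1z, hc1c2]
    · simp [hzc1, hzc1z, hzc2]
    · simp [h1z, h1c1, h1c1z, h1c2]
  have hle := Set.ncard_le_ncard hsub (Set.toFinite _)
  rw [Set.ncard_coe_finset, h5, ← Nat.card_coe_set_eq] at hle
  have : Nat.card ↥(Subgroup.closure ({z, c₁, c₂} : Set G))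
      = Nat.card ↑(Subgroup.closure ({z, c₁, c₂} : Set G) : Set G) := rfl
  omega

include hHn hZc in
/-- The abstract form of statement S4405. -/
theorem eq_centralizer_of_card_four (hG : Nat.card G = 320) (hH : Nat.card H = 32) (hZH : Z ≤ H)
    (hZ2 : ∀ c ∈ Z, c * c = 1)
    (hcomm : ∀ h ∈ H, ∀ k ∈ H, h * k * h⁻¹ * k⁻¹ ∈ Z)
    (hsq : ∀ h ∈ H, h * h ∈ Z)
    (hCH : Subgroup.centralizer (H : Set G) ≤ H)
    (hO2 : ∀ A : Subgroup G, A.Normal → IsPGroup 2 A → A ≤ H)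
    (hminus : ∀ A : Subgroup G, A ≤ H → Cfsg.IsElementaryAbelian 2 A → Nat.card A ≤ 4)
    (z : G) (hz : z ∈ Z) (hz1 : z ≠ 1)
    (T : G) (hT : T * T = 1) (hTH : T ∉ H)
    (V : Subgroup G) (hV : V ≤ H ⊓ Subgroup.centralizer ({T} : Set G)) (hV4 : Nat.card V = 4) :
    V = H ⊓ Subgroup.centralizer ({T} : Set G) := by
  have h8 := card_nearCent_le H Z hZc hG hH hZ2 hcomm hCH hO2 T hTH
  have hne := nearCent_ne H Z hZc hH hZH hZ2 hcomm hsq hminus z hz hz1 T hT h8
  have hCP : H ⊓ Subgroup.centralizer ({T} : Set G) ≤ nearCent H Z hZc T := by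
    intro h hh
    rw [mem_nearCent]
    refine ⟨hh.1, ?_⟩
    have h1 := Subgroup.mem_centralizer_singleton_iff.mp hh.2
    have e : h * T * h⁻¹ * T⁻¹ = 1 := by rw [h1]; group
    rw [e]
    exact Z.one_mem
  have hlt : Nat.card ↥(H ⊓ Subgroup.centralizer ({T} : Set G))
      < Nat.card ↥(nearCent H Z hZc T) := by
    by_contra hc
    exact hne (Subgroup.eq_of_le_of_card_ge hCP (not_lt.mp hc))
  have hdvd : Nat.card ↥(H ⊓ Subgroup.centralizer ({T} : Set G)) ∣ 32 := by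
    rw [← hH]; exact Subgroup.card_dvd_of_le inf_le_left
  have hVle := Subgroup.card_le_of_le hV
  rw [hV4] at hVle
  have h4 : Nat.card ↥(H ⊓ Subgroup.centralizer ({T} : Set G)) = 4 := by
    generalize Nat.card ↥(H ⊓ Subgroup.centralizer ({T} : Set G)) = c at *
    have : c ≤ 7 := by omega
    interval_cases c <;> omega
  exact Subgroup.eq_of_le_of_card_ge hV (by rw [h4, hV4])

end main

end order320

end Cfsg.Agent.H91
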