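import Mathlib
import Cfsg.Agent.H97.SuLDefs

/-!
# SuL-HEIS (helper91, for helper97's S2334/S2335 project)

An occurring nontrivial character of the root group of `e` has an eigenspace of dimension at
least `q^m` (Heisenberg orbit argument).
-/

set_option autoImplicit false

namespace Cfsg.Agent.H91.SuL

open Module Cfsg.Agent.H17 Cfsg.Agent.H97.SuL

universe u

theorem heis (hA : StASub.{u}) (hMv : StAMove.{u}) (hSep : StFSep.{u}) (hFE : StFormEmb.{u})
    (hRI : StRInd.{u}) (hRE : StREig.{u}) (hZM : StZMult.{u}) (hEn : StEnumM.{u}) :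
    StHeis.{u} := by
  intro F _ _ q hF m e hePl hee V _ _ _ ρ lam v hv hvU hlam
  classical
  obtain ⟨hlam0, hlammul⟩ := hZM hF e hee ρ lam v hv hvU
  obtain ⟨A, hAcomm, hAin, hAout⟩ := hA hF m e hePl hee
  obtain ⟨w, rfl⟩ := hePl
  -- `emb x ⟂ e`
  have hembe : ∀ x : Fin m → F,
      Cfsg.hermForm (m + 2) F q (emb m x) (Fin.append 0 w) = 0 := by
    intro x
    unfold emb
    rw [hFE hF m x 0 0 w, hermForm_zero_right _ hF, hermForm_zero_left, add_zero]
  -- the form on `emb`'s with `F_q`-coordinates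
  have hform : ∀ x y : Fin m → F, (∀ i, y i ^ q = y i) →
      Cfsg.hermForm (m + 2) F q (emb m x) (emb m y) = ∑ i, x i * y i := by
    intro x y hy
    unfold emb
    rw [hFE hF m x y 0 0, hermForm_zero_left, add_zero]
    unfold Cfsg.hermForm
    apply Finset.sum_congr rfl
    intro i _
    rw [hy i]
  -- the identity is `E(e, 0, 0)`
  have hI : IsE (Fin.append 0 w) 0 0 (1 : ↥(Cfsg.SU (m + 2) F q)) := by
    intro z
    rw [suAct_one, hermForm_zero_right _ hF]
    simp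
  -- Heisenberg elements commute with the root group
  have comm0 : ∀ (b : Fin (m + 2) → F) (c : F) (g : ↥(Cfsg.SU (m + 2) F q)),
      Cfsg.hermForm (m + 2) F q b (Fin.append 0 w) = 0 → IsE (Fin.append 0 w) b c g →
      ∀ (d : F) (z : ↥(Cfsg.SU (m + 2) F q)), IsE (Fin.append 0 w) 0 d z → g * z = z * g := by
    intro b c g hbe hg d z hz
    have h1 : IsE (Fin.append 0 w) 0
        (Cfsg.hermForm (m + 2) F q b 0 - Cfsg.hermForm (m + 2) F q 0 b)
        (1 : ↥(Cfsg.SU (m + 2) F q)) := by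
      rw [hermForm_zero_right _ hF, hermForm_zero_left, sub_zero]
      exact hI
    have h2 := hMv hF (Fin.append 0 w) b 0 c d g z 1 hee hbe (hermForm_zero_left _ _) hg hz h1
    rw [mul_one] at h2
    exact h2
  -- hence they stabilise the eigenspace
  have stab : ∀ (b : Fin (m + 2) → F) (c : F) (g : ↥(Cfsg.SU (m + 2) F q)),
      Cfsg.hermForm (m + 2) F q b (Fin.append 0 w) = 0 → IsE (Fin.append 0 w) b c g →
      ∀ x ∈ zEig ρ (Fin.append 0 w) lam, ρ g x ∈ zEig ρ (Fin.append 0 w) lam := by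
    intro b c g hbe hg x hx d z hd hz
    have h1 := comm0 b c g hbe hg d z hz
    rw [← Module.End.mul_apply, ← map_mul, ← h1, map_mul, Module.End.mul_apply, hx d z hd hz,
      map_smul]
  have hinj : ∀ (g : ↥(Cfsg.SU (m + 2) F q)) (x : V), ρ g x = 0 → x = 0 := by
    intro g x hx
    have h1 : ρ g⁻¹ (ρ g x) = x := by
      rw [← Module.End.mul_apply, ← map_mul, inv_mul_cancel, map_one, Module.End.one_apply]
    rw [← h1, hx, map_zero]
  -- a joint eigenvector of `A` in the eigenspace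
  have hUne : zEig ρ (Fin.append 0 w) lam ≠ ⊥ := fun h0 =>
    hv ((Submodule.eq_bot_iff _).mp h0 v hvU)
  have hstabA : ∀ a ∈ A, ∀ x ∈ zEig ρ (Fin.append 0 w) lam,
      ρ a x ∈ zEig ρ (Fin.append 0 w) lam := by
    intro a ha x hx
    obtain ⟨x', c, _, hE⟩ := hAout a ha
    exact stab (emb m x') c a (hembe x') hE x hx
  obtain ⟨v₁, hv₁U, hv₁0, χ, hχ⟩ := hRE ρ A hAcomm (zEig ρ (Fin.append 0 w) lam) hUne hstabA
  have hχ0 : ∀ a ∈ A, χ a ≠ 0 := by
    intro a ha h0
    have h1 := hχ a ha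
    rw [h0, zero_smul] at h1
    exact hv₁0 (hinj a v₁ h1)
  -- an element outside the fixed field
  obtain ⟨ω, hω⟩ : ∃ ω : F, ω ^ q ≠ ω := by
    by_contra hcon
    have hcon' : ∀ θ : F, θ ^ q = θ := fun θ => by_contra fun h => hcon ⟨θ, h⟩
    exact frobHom_ne_id hF (RingHom.ext hcon')
  obtain ⟨f, hfinj, hfq⟩ := hEn hF m
  -- the translating elements
  have hbe : ∀ j, Cfsg.hermForm (m + 2) F q (ω • emb m (f j)) (Fin.append 0 w) = 0 := by
    intro j
    rw [hermForm_smul_left, hembe, mul_zero]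
  have hc : ∀ j, ∃ c : F, c + c ^ q +
      Cfsg.hermForm (m + 2) F q (ω • emb m (f j)) (ω • emb m (f j)) = 0 :=
    fun j => exists_trace_neg hF _ (hermForm_conj _ hF _ _)
  choose c hc using hc
  have hg : ∀ j, ∃ g : ↥(Cfsg.SU (m + 2) F q),
      IsE (Fin.append 0 w) (ω • emb m (f j)) (c j) g :=
    fun j => ex_E hF (Fin.append 0 w) (ω • emb m (f j)) (c j) hee (hbe j) (hc j)
  choose g hg using hg
  have hvj0 : ∀ j, ρ (g j) v₁ ≠ 0 := fun j h0 => hv₁0 (hinj (g j) v₁ h0)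
  have hvjU : ∀ j, ρ (g j) v₁ ∈ zEig ρ (Fin.append 0 w) lam :=
    fun j => stab _ (c j) (g j) (hbe j) (hg j) v₁ hv₁U
  -- the eigenvalue computation
  have eig : ∀ (j : Fin (q ^ m)) (a : ↥(Cfsg.SU (m + 2) F q)) (x : Fin m → F) (c' : F),
      a ∈ A → (∀ i, x i ^ q = x i) → IsE (Fin.append 0 w) (emb m x) c' a →
      ρ a (ρ (g j) v₁) = (lam ((ω ^ q - ω) * ∑ i, x i * f j i) * χ a) • ρ (g j) v₁ := by
    intro j a x c' haA hx hE
    have hδ : Cfsg.hermForm (m + 2) F q (emb m x) (ω • emb m (f j)) -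
        Cfsg.hermForm (m + 2) F q (ω • emb m (f j)) (emb m x) =
        (ω ^ q - ω) * ∑ i, x i * f j i := by
      rw [hermForm_smul_right, hermForm_smul_left, hform x (f j) (hfq j), hform (f j) x hx]
      have : ∑ i, f j i * x i = ∑ i, x i * f j i :=
        Finset.sum_congr rfl (fun i _ => mul_comm _ _)
      rw [this]
      ring
    have hδq : ((ω ^ q - ω) * ∑ i, x i * f j i) ^ q = -((ω ^ q - ω) * ∑ i, x i * f j i) := by
      rw [← hδ, frob_sub hF, hermForm_conj _ hF, hermForm_conj _ hF]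
      ring
    obtain ⟨z, hz⟩ := ex_E hF (Fin.append 0 w) 0 ((ω ^ q - ω) * ∑ i, x i * f j i) hee
      (hermForm_zero_left _ _) (by rw [hδq, hermForm_zero_left]; ring)
    have hz' : IsE (Fin.append 0 w) 0 ((ω ^ q - ω) * ∑ i, x i * f j i) z := hz
    have hz'' : IsE (Fin.append 0 w) 0
        (Cfsg.hermForm (m + 2) F q (emb m x) (ω • emb m (f j)) -
          Cfsg.hermForm (m + 2) F q (ω • emb m (f j)) (emb m x)) z := by
      rw [hδ]
      exact hz'
    have h2 := hMv hF (Fin.append 0 w) (emb m x) (ω • emb m (f j)) c' (c j) a (g j) z hee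
      (hembe x) (hbe j) hE (hg j) hz''
    rw [← Module.End.mul_apply, ← map_mul, h2, map_mul, map_mul, Module.End.mul_apply,
      Module.End.mul_apply, hv₁U _ z hδq hz', map_smul, hχ a haA, map_smul, map_smul, smul_smul]
  -- the eigen-functions
  have hex : ∀ (j : Fin (q ^ m)) (a : ↥A), ∃ s : ℂ, ρ a.1 (ρ (g j) v₁) = s • ρ (g j) v₁ := by
    intro j a
    obtain ⟨x, c', hx, hE⟩ := hAout a.1 a.2
    exact ⟨_, eig j a.1 x c' a.2 hx hE⟩
  choose μ hμ using hex
  have hμinj : Function.Injective μ := by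
    intro j j' hjj'
    by_contra hne
    have hf : f j ≠ f j' := fun h => hne (hfinj h)
    obtain ⟨x, hx, hsep⟩ := hSep hF m lam hlam0 hlammul hlam ω hω (f j) (f j') (hfq j) (hfq j') hf
    obtain ⟨c', hc'⟩ := exists_trace_neg hF
      (Cfsg.hermForm (m + 2) F q (emb m x) (emb m x)) (hermForm_conj _ hF _ _)
    obtain ⟨a, ha⟩ := ex_E hF (Fin.append 0 w) (emb m x) c' hee (hembe x) hc'
    have haE : IsE (Fin.append 0 w) (emb m x) c' a := ha
    have haA : a ∈ A := hAin x c' a hx haE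
    have key : ∀ j₀, μ j₀ ⟨a, haA⟩ = lam ((ω ^ q - ω) * ∑ i, x i * f j₀ i) * χ a := by
      intro j₀
      have h1 := hμ j₀ ⟨a, haA⟩
      have h2 := eig j₀ a x c' haA hx haE
      rw [h1] at h2
      have h3 : (μ j₀ ⟨a, haA⟩ - lam ((ω ^ q - ω) * ∑ i, x i * f j₀ i) * χ a) • ρ (g j₀) v₁
          = 0 := by
        rw [sub_smul, h2, sub_self]
      rcases smul_eq_zero.mp h3 with h4 | h4
      · exact sub_eq_zero.mp h4
      · exact absurd h4 (hvj0 j₀)
    have h5 := key j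
    rw [hjj', key j'] at h5
    exact hsep (mul_right_cancel₀ (hχ0 a haA) h5).symm
  -- conclusion
  have hfin := hRI (B := ↥A) (V := V) (fun a => ρ a.1) (I := Fin (q ^ m)) μ hμinj
    (fun j => Submodule.span ℂ {ρ (g j) v₁})
    (fun j => Submodule.span_le.mpr (Set.singleton_subset_iff.mpr (fun a => hμ j a)))
    (zEig ρ (Fin.append 0 w) lam)
    (fun j => Submodule.span_le.mpr (Set.singleton_subset_iff.mpr (hvjU j)))
  have hsum : ∑ j : Fin (q ^ m), finrank ℂ (Submodule.span ℂ {ρ (g j) v₁}) = q ^ m := by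
    simp [finrank_span_singleton (hvj0 _)]
  rw [hsum] at hfin
  exact hfin

example (hA : StASub.{u}) (hMv : StAMove.{u}) (hSep : StFSep.{u}) (hFE : StFormEmb.{u})
    (hRI : StRInd.{u}) (hRE : StREig.{u}) (hZM : StZMult.{u}) (hEn : StEnumM.{u}) :
    ∀ {F : Type u} [Field F] [Fintype F] {q : ℕ}, Fintype.card F = q ^ 2 →
    ∀ (m : ℕ) (e : Fin (m + 2) → F), InPl m e → Cfsg.hermForm (m + 2) F q e e = 0 →
    ∀ {V : Type} [AddCommGroup V] [Module ℂ V] [FiniteDimensional ℂ V]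
      (ρ : Representation ℂ ↥(Cfsg.SU (m + 2) F q) V) (lam : F → ℂ) (v : V), v ≠ 0 →
      v ∈ zEig ρ e lam → (∃ c : F, c ^ q = -c ∧ lam c ≠ 1) →
      q ^ m ≤ finrank ℂ (zEig ρ e lam) :=
  heis hA hMv hSep hFE hRI hRE hZM hEn

end Cfsg.Agent.H91.SuL
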