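import Mathlib
import Cfsg.Agent.H97.SuLDefs

/-!
# SuL-STI (helper91, for helper97's S2334/S2335 project)

Step (I): `dim V ≥ dim C_V(Z) + (q - 1) q^m` when the root group `Z` of `e` acts nontrivially.
-/

set_option autoImplicit false

namespace Cfsg.Agent.H91.SuL

open Module Cfsg.Agent.H17 Cfsg.Agent.H97.SuL

universe u

theorem sti (hZC : StZChar.{u}) (hT1 : StTor1.{u}) (hZMv : StZMove.{u}) (hZM : StZMult.{u})
    (hZI : StZInj.{u}) (hEn : StEnum.{u}) (hH : StHeis.{u}) (hRI : StRInd.{u}) : StI.{u} := by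
  intro F _ _ q hF m hm e hePl he0 hee V _ _ _ ρ hNT
  classical
  have hq2 := two_le_of_card_sq hF
  obtain ⟨c₀, g₀, hc₀, hg₀, hρ⟩ := hNT
  have hx : ∃ x ∈ (⊤ : Submodule ℂ V), ρ g₀ x ≠ x := by
    by_contra hcon
    apply hρ
    apply LinearMap.ext
    intro x
    by_contra hne
    exact hcon ⟨x, Submodule.mem_top, hne⟩
  obtain ⟨lam, v, hv0, -, hvU, c₁, hc₁, hlc₁⟩ := hZC hF e hee ρ ⊤
    (fun _ _ _ _ _ _ => Submodule.mem_top) ⟨c₀, g₀, hc₀, hg₀, hx⟩
  obtain ⟨hlam0, hlammul⟩ := hZM hF e hee ρ lam v hv0 hvU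
  obtain ⟨f, hfinj, hf⟩ := hEn hF
  have hinj : ∀ (g : ↥(Cfsg.SU (m + 2) F q)) (x : V), ρ g x = 0 → x = 0 := by
    intro g x hx
    have h1 : ρ g⁻¹ (ρ g x) = x := by
      rw [← Module.End.mul_apply, ← map_mul, inv_mul_cancel, map_one, Module.End.one_apply]
    rw [← h1, hx, map_zero]
  -- torus elements
  have hq0 : ∀ i, ((f i)⁻¹) ^ q = (f i)⁻¹ := by
    intro i
    rw [inv_pow, (hf i).1]
  have ht : ∀ i, ∃ (t : ↥(Cfsg.SU (m + 2) F q)) (s : F),
      s ≠ 0 ∧ s ^ (q + 1) = (f i)⁻¹ ∧ suAct t e = s • e :=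
    fun i => hT1 hF (by omega) e he0 hee (f i)⁻¹ (hq0 i) (inv_ne_zero (hf i).2)
  choose t s hs0 hsN hte using ht
  have hmove : ∀ i, ρ (t i) v ∈ zEig ρ e (fun c => lam (f i * c)) := by
    intro i
    have h1 := hZMv hF e ρ lam v (t i) (s i) (hs0 i) (hte i) hvU
    rw [hsN i, inv_inv] at h1
    exact h1
  have hheis : ∀ i, q ^ m ≤ finrank ℂ (zEig ρ e (fun c => lam (f i * c))) := by
    intro i
    refine hH hF m e hePl hee ρ (fun c => lam (f i * c)) (ρ (t i) v)
      (fun h0 => hv0 (hinj _ _ h0)) (hmove i) ⟨(f i)⁻¹ * c₁, ?_, ?_⟩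
    · rw [mul_pow, hq0 i, hc₁]
      ring
    · show lam (f i * ((f i)⁻¹ * c₁)) ≠ 1
      rw [mul_inv_cancel_left₀ (hf i).2]
      exact hlc₁
  -- the parameters `0` and `f i`
  set r : Option (Fin (q - 1)) → F := fun o => o.elim 0 f with hr
  have hrq : ∀ o, r o ^ q = r o := by
    intro o
    cases o with
    | none => exact zero_pow (by omega)
    | some i => exact (hf i).1
  have hrinj : Function.Injective r := by
    intro o o' h
    cases o with
    | none =>
      cases o' with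
      | none => rfl
      | some i => exact absurd h.symm (hf i).2
    | some i =>
      cases o' with
      | none => exact absurd h (hf i).2
      | some i' => exact congrArg some (hfinj h)
  -- independence of the eigenspaces
  have hfin := hRI
    (B := {p : F × ↥(Cfsg.SU (m + 2) F q) // p.1 ^ q = -p.1 ∧ IsE e 0 p.1 p.2}) (V := V)
    (fun p => ρ p.1.2) (I := Option (Fin (q - 1))) (fun o p => lam (r o * p.1.1))
    (by
      intro o o' h
      by_contra hne
      have h1 : r o ≠ r o' := fun h' => hne (hrinj h')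
      obtain ⟨c, hc, hcne⟩ := hZI hF lam hlam0 hlammul ⟨c₁, hc₁, hlc₁⟩ (r o) (r o') (hrq o)
        (hrq o') h1
      obtain ⟨z, hz⟩ := ex_E hF e 0 c hee (hermForm_zero_left _ _)
        (by rw [hc, hermForm_zero_left]; ring)
      exact hcne (congrFun h ⟨(c, z), hc, hz⟩))
    (fun o => zEig ρ e (fun c => lam (r o * c)))
    (fun o x hx p => hx p.1.1 p.1.2 p.2.1 p.2.2)
    ⊤ (fun o => le_top)
  rw [Fintype.sum_option, finrank_top] at hfin
  have h0 : zEig ρ e (fun c => lam (r none * c)) = zEig ρ e (fun _ => 1) := by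
    congr 1
    funext c
    show lam (0 * c) = 1
    rw [zero_mul, hlam0]
  have h1 : (q - 1) * q ^ m ≤ ∑ i : Fin (q - 1), finrank ℂ (zEig ρ e (fun c => lam (r (some i) * c))) := by
    have h2 : ∑ _i : Fin (q - 1), q ^ m ≤
        ∑ i : Fin (q - 1), finrank ℂ (zEig ρ e (fun c => lam (r (some i) * c))) :=
      Finset.sum_le_sum (fun i _ => hheis i)
    simpa using h2
  rw [h0] at hfin
  omega

example (hZC : StZChar.{u}) (hT1 : StTor1.{u}) (hZMv : StZMove.{u}) (hZM : StZMult.{u})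
    (hZI : StZInj.{u}) (hEn : StEnum.{u}) (hH : StHeis.{u}) (hRI : StRInd.{u}) :
    ∀ {F : Type u} [Field F] [Fintype F] {q : ℕ}, Fintype.card F = q ^ 2 →
    ∀ (m : ℕ), 1 ≤ m → ∀ (e : Fin (m + 2) → F), InPl m e → e ≠ 0 →
      Cfsg.hermForm (m + 2) F q e e = 0 →
    ∀ {V : Type} [AddCommGroup V] [Module ℂ V] [FiniteDimensional ℂ V]
      (ρ : Representation ℂ ↥(Cfsg.SU (m + 2) F q) V), RootNT ρ e →
      finrank ℂ (zEig ρ e (fun _ => 1)) + (q - 1) * q ^ m ≤ finrank ℂ V :=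
  sti hZC hT1 hZMv hZM hZI hEn hH hRI

end Cfsg.Agent.H91.SuL
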