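import Mathlib
import Cfsg.Agent.H17.TgDefs

/-!
# TG-E64 (helper91, for helper17's S1904 project)

A group with centre of order 2, all squares central and order at least 64 has two commuting
involutions that are independent modulo the centre.
-/

set_option autoImplicit false

universe u

namespace Cfsg.Agent.H91.Tg

open Cfsg Cfsg.Agent.H17.Tg

/-- Avoiding finitely many cosets of `Z` inside a subgroup `C`. -/
theorem e64_avoid {X : Type*} [Group X] [Finite X] (Z C : Subgroup X) (l : List X)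
    (h : l.length * Nat.card Z < Nat.card C) : ∃ y ∈ C, ∀ g ∈ l, g * y ∉ Z := by
  classical
  have : Fintype X := Fintype.ofFinite X
  by_contra hcon
  push Not at hcon
  have hZF : Nat.card Z = (Finset.univ.filter (fun x : X => x ∈ Z)).card :=
    Nat.subtype_card _ (fun x => by simp)
  have hCF : Nat.card C = (Finset.univ.filter (fun x : X => x ∈ C)).card :=
    Nat.subtype_card _ (fun x => by simp)
  have hsub : (Finset.univ.filter (fun x : X => x ∈ C)) ⊆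
      l.toFinset.biUnion (fun g => (Finset.univ.filter (fun x : X => x ∈ Z)).image
        (fun z => g⁻¹ * z)) := by
    intro y hy
    rw [Finset.mem_filter] at hy
    obtain ⟨g, hg, hgy⟩ := hcon y hy.2
    rw [Finset.mem_biUnion]
    refine ⟨g, List.mem_toFinset.2 hg, ?_⟩
    rw [Finset.mem_image]
    exact ⟨g * y, by simp [hgy], by group⟩
  have h1 := Finset.card_le_card hsub
  have h2 : (l.toFinset.biUnion (fun g => (Finset.univ.filter (fun x : X => x ∈ Z)).image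
      (fun z => g⁻¹ * z))).card ≤ l.toFinset.card *
        (Finset.univ.filter (fun x : X => x ∈ Z)).card := by
    refine le_trans Finset.card_biUnion_le ?_
    refine le_trans (Finset.sum_le_card_nsmul _ _ _ (fun g _ => Finset.card_image_le)) ?_
    rw [smul_eq_mul]
  have h3 : l.toFinset.card ≤ l.length := List.toFinset_card_le l
  have h4 : l.toFinset.card * (Finset.univ.filter (fun x : X => x ∈ Z)).card ≤
      l.length * (Finset.univ.filter (fun x : X => x ∈ Z)).card :=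
    Nat.mul_le_mul_right _ h3
  rw [hZF, hCF] at h
  omega

/-- commutators are central when all squares are central -/
theorem e64_comm {X : Type*} [Group X] (hsq : ∀ x : X, x ^ 2 ∈ Subgroup.center X) (a b : X) :
    a * b * a⁻¹ * b⁻¹ ∈ Subgroup.center X := by
  have h1 := hsq (a * b)
  have h2 := hsq a
  have h3 := hsq b
  have hc : b * (a ^ 2)⁻¹ = (a ^ 2)⁻¹ * b :=
    (Subgroup.mem_center_iff.mp (Subgroup.inv_mem _ h2)) b
  have e : a * b * a⁻¹ * b⁻¹ = (a * b) * (a * b) * (a ^ 2)⁻¹ * (b ^ 2)⁻¹ := by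
    calc a * b * a⁻¹ * b⁻¹ = a * b * a * ((a ^ 2)⁻¹ * b) * (b ^ 2)⁻¹ := by group
      _ = a * b * a * (b * (a ^ 2)⁻¹) * (b ^ 2)⁻¹ := by rw [hc]
      _ = (a * b) * (a * b) * (a ^ 2)⁻¹ * (b ^ 2)⁻¹ := by group
  rw [e, ← pow_two]
  exact Subgroup.mul_mem _ (Subgroup.mul_mem _ h1 (Subgroup.inv_mem _ h2)) (Subgroup.inv_mem _ h3)

/-- the commutator map `a ↦ [x, a]` as a homomorphism into the centre -/
noncomputable def e64_hom {X : Type*} [Group X] (hsq : ∀ x : X, x ^ 2 ∈ Subgroup.center X)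
    (x : X) : X →* ↥(Subgroup.center X) :=
  MonoidHom.mk' (fun a => ⟨x * a * x⁻¹ * a⁻¹, e64_comm hsq x a⟩) (by
    intro a b
    apply Subtype.ext
    show x * (a * b) * x⁻¹ * (a * b)⁻¹ = (x * a * x⁻¹ * a⁻¹) * (x * b * x⁻¹ * b⁻¹)
    have hcb : a * (x * b * x⁻¹ * b⁻¹) = (x * b * x⁻¹ * b⁻¹) * a :=
      (Subgroup.mem_center_iff.mp (e64_comm hsq x b)) a
    calc x * (a * b) * x⁻¹ * (a * b)⁻¹
        = x * a * x⁻¹ * a⁻¹ * (a * (x * b * x⁻¹ * b⁻¹)) * a⁻¹ := by group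
      _ = x * a * x⁻¹ * a⁻¹ * ((x * b * x⁻¹ * b⁻¹) * a) * a⁻¹ := by rw [hcb]
      _ = (x * a * x⁻¹ * a⁻¹) * (x * b * x⁻¹ * b⁻¹) := by group)

theorem e64_mem_ker {X : Type*} [Group X] (hsq : ∀ x : X, x ^ 2 ∈ Subgroup.center X)
    (x a : X) (ha : a ∈ (e64_hom hsq x).ker) : x * a = a * x := by
  rw [MonoidHom.mem_ker] at ha
  have h1 : x * a * x⁻¹ * a⁻¹ = 1 := congrArg Subtype.val ha
  calc x * a = (x * a * x⁻¹ * a⁻¹) * (a * x) := by group
    _ = a * x := by rw [h1, one_mul]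

theorem e64_pow_mod {X : Type*} [Group X] (hsq : ∀ x : X, x ^ 2 ∈ Subgroup.center X)
    (w : X) (a : ℕ) : ∃ ζ ∈ Subgroup.center X, w ^ a = w ^ (a % 2) * ζ := by
  refine ⟨(w ^ 2) ^ (a / 2), Subgroup.pow_mem _ (hsq w) _, ?_⟩
  rw [← pow_mul, ← pow_add, Nat.mod_add_div]

theorem e64_reorder {X : Type*} [Group X] (P Q R z1 z2 z3 : X) (h1 : ∀ g : X, g * z1 = z1 * g)
    (h2 : ∀ g : X, g * z2 = z2 * g) :
    P * z1 * (Q * z2) * (R * z3) = P * Q * R * (z1 * z2 * z3) := by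
  calc P * z1 * (Q * z2) * (R * z3) = P * (z1 * Q) * (z2 * R) * z3 := by group
    _ = P * (Q * z1) * (R * z2) * z3 := by rw [← h1 Q, ← h2 R]
    _ = P * Q * (z1 * R) * z2 * z3 := by group
    _ = P * Q * (R * z1) * z2 * z3 := by rw [← h1 R]
    _ = P * Q * R * (z1 * z2 * z3) := by group

/-- TG-E64. -/
theorem e64 (hInv3 : StInv3.{u}) : StE64.{u} := by
  intro X _ _ hZ hsq hcard
  -- three elements independent modulo the centre
  have htop : Nat.card (⊤ : Subgroup X) = Nat.card X := Subgroup.card_top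
  obtain ⟨x₁, -, hx₁⟩ := e64_avoid (Subgroup.center X) ⊤ [1]
    (by rw [htop, hZ]; simp only [List.length_cons, List.length_nil]; omega)
  obtain ⟨x₂, -, hx₂⟩ := e64_avoid (Subgroup.center X) ⊤ [1, x₁]
    (by rw [htop, hZ]; simp only [List.length_cons, List.length_nil]; omega)
  obtain ⟨x₃, -, hx₃⟩ := e64_avoid (Subgroup.center X) ⊤ [1, x₁, x₂, x₁ * x₂]
    (by rw [htop, hZ]; simp only [List.length_cons, List.length_nil]; omega)
  simp only [List.mem_cons, List.not_mem_nil, or_false, forall_eq_or_imp, forall_eq,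
    one_mul] at hx₁ hx₂ hx₃
  obtain ⟨a, b, c, hxZ, hx2⟩ := hInv3 X hZ hsq x₁ x₂ x₃ hx₁ hx₂.1 hx₃.1 hx₂.2 hx₃.2.1
    hx₃.2.2.1 hx₃.2.2.2
  obtain ⟨x, hx⟩ : ∃ x : X, x = x₁ ^ a * x₂ ^ b * x₃ ^ c := ⟨_, rfl⟩
  rw [← hx] at hxZ hx2
  -- the centraliser of `x` has order at least 32
  have hidx : (e64_hom hsq x).ker.index ≤ 2 := by
    rw [Subgroup.index_ker, ← hZ]
    exact Subgroup.card_le_card_group _
  have hker : 32 ≤ Nat.card (e64_hom hsq x).ker := by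
    have h1 := Subgroup.card_mul_index (e64_hom hsq x).ker
    have h2 : Nat.card (e64_hom hsq x).ker * (e64_hom hsq x).ker.index ≤
        Nat.card (e64_hom hsq x).ker * 2 := Nat.mul_le_mul_left _ hidx
    omega
  obtain ⟨y₁, hy₁C, hy₁⟩ := e64_avoid (Subgroup.center X) (e64_hom hsq x).ker [1, x]
    (by rw [hZ]; simp only [List.length_cons, List.length_nil]; omega)
  obtain ⟨y₂, hy₂C, hy₂⟩ := e64_avoid (Subgroup.center X) (e64_hom hsq x).ker
    [1, x, y₁, x * y₁] (by rw [hZ]; simp only [List.length_cons, List.length_nil]; omega)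
  obtain ⟨y₃, hy₃C, hy₃⟩ := e64_avoid (Subgroup.center X) (e64_hom hsq x).ker
    [1, x, y₁, x * y₁, y₂, x * y₂, y₁ * y₂, x * y₁ * y₂] (by rw [hZ]; simp only [List.length_cons, List.length_nil]; omega)
  simp only [List.mem_cons, List.not_mem_nil, or_false, forall_eq_or_imp, forall_eq,
    one_mul] at hy₁ hy₂ hy₃
  obtain ⟨a', b', c', hyZ, hy2⟩ := hInv3 X hZ hsq y₁ y₂ y₃ hy₁.1 hy₂.1 hy₃.1 hy₂.2.2.1
    hy₃.2.2.1 hy₃.2.2.2.2.1 hy₃.2.2.2.2.2.2.1
  have c1 : Commute x y₁ := e64_mem_ker hsq x y₁ hy₁C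
  have c2 : Commute x y₂ := e64_mem_ker hsq x y₂ hy₂C
  have c3 : Commute x y₃ := e64_mem_ker hsq x y₃ hy₃C
  have hcomm : Commute x (y₁ ^ a' * y₂ ^ b' * y₃ ^ c') :=
    ((c1.pow_right a').mul_right (c2.pow_right b')).mul_right (c3.pow_right c')
  refine ⟨x, y₁ ^ a' * y₂ ^ b' * y₃ ^ c', hxZ, hx2, hy2, hcomm, hyZ, ?_⟩
  -- reduce the exponents modulo 2
  obtain ⟨ζ₁, hζ₁, e₁⟩ := e64_pow_mod hsq y₁ a'
  obtain ⟨ζ₂, hζ₂, e₂⟩ := e64_pow_mod hsq y₂ b'
  obtain ⟨ζ₃, hζ₃, e₃⟩ := e64_pow_mod hsq y₃ c'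
  have hy : y₁ ^ a' * y₂ ^ b' * y₃ ^ c' =
      y₁ ^ (a' % 2) * y₂ ^ (b' % 2) * y₃ ^ (c' % 2) * (ζ₁ * ζ₂ * ζ₃) := by
    rw [e₁, e₂, e₃]
    exact e64_reorder _ _ _ _ _ _ (Subgroup.mem_center_iff.mp hζ₁)
      (Subgroup.mem_center_iff.mp hζ₂)
  have hζ : ζ₁ * ζ₂ * ζ₃ ∈ Subgroup.center X :=
    Subgroup.mul_mem _ (Subgroup.mul_mem _ hζ₁ hζ₂) hζ₃
  have hP : y₁ ^ (a' % 2) * y₂ ^ (b' % 2) * y₃ ^ (c' % 2) ∉ Subgroup.center X := by
    intro hmem
    apply hyZ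
    rw [hy]
    exact Subgroup.mul_mem _ hmem hζ
  intro hxy
  have hxP : x * (y₁ ^ (a' % 2) * y₂ ^ (b' % 2) * y₃ ^ (c' % 2)) ∈ Subgroup.center X := by
    have e : x * (y₁ ^ (a' % 2) * y₂ ^ (b' % 2) * y₃ ^ (c' % 2)) =
        x * (y₁ ^ a' * y₂ ^ b' * y₃ ^ c') * (ζ₁ * ζ₂ * ζ₃)⁻¹ := by
      rw [hy]; group
    rw [e]
    exact Subgroup.mul_mem _ hxy (Subgroup.inv_mem _ hζ)
  rcases Nat.mod_two_eq_zero_or_one a' with ha | ha <;>
    rcases Nat.mod_two_eq_zero_or_one b' with hb | hb <;>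
    rcases Nat.mod_two_eq_zero_or_one c' with hc | hc <;>
    rw [ha, hb, hc] at hP hxP <;>
    simp only [pow_zero, pow_one, one_mul, mul_one] at hP hxP
  · exact hP (Subgroup.one_mem _)
  · exact hy₃.2.1 hxP
  · exact hy₂.2.1 hxP
  · exact hy₃.2.2.2.2.2.1 (by rw [mul_assoc]; exact hxP)
  · exact hy₁.2 hxP
  · exact hy₃.2.2.2.1 (by rw [mul_assoc]; exact hxP)
  · exact hy₂.2.2.2 (by rw [mul_assoc]; exact hxP)
  · exact hy₃.2.2.2.2.2.2.2 (by rw [mul_assoc, mul_assoc, ← mul_assoc y₁]; exact hxP)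

example (hInv3 : Cfsg.Agent.H17.Tg.StInv3.{u}) : Cfsg.Agent.H17.Tg.StE64.{u} := e64 hInv3

end Cfsg.Agent.H91.Tg
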